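/- S5227: models of the coded group. -/
import Cfsg.Agent.FUS.C9.Tab
import Cfsg.Agent.FUS.T3.Defs
set_option autoImplicit false

namespace CL.C9
open Cfsg CL.Fus CL.K Subgroup
open CL.T3 (cm Ch)

variable {P : Type*} [Group P] {x y : ℕ}

theorem cmc_lt (hx : x < 19683) (hy : y < 19683) : cmc x y < 19683 := mu_lt (iv_lt (mu_lt hy hx)) (mu_lt hx hy)

theorem cjc_lt (hx : x < 19683) (hy : y < 19683) : cjc x y < 19683 := mu_lt (mu_lt hx hy) (iv_lt hx)

theorem cub_lt (hx : x < 19683) : cub x < 19683 := mu_lt (mu_lt hx hx) hx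

theorem mu_zero : mu 0 0 = 0 := by decide +kernel

theorem mu_lt_pow {j : ℕ} (hj : j ≤ 9) (hx : x < 3 ^ j) (hy : y < 3 ^ j) : mu x y < 3 ^ j := by
  rcases j with _ | j
  · obtain rfl : x = 0 := by omega
    obtain rfl : y = 0 := by omega
    rw [mu_zero]; norm_num
  · exact (mu_dig hj hx hy).1

theorem iv_lt_pow {j : ℕ} (hj : j ≤ 9) (hx : x < 3 ^ j) : iv x < 3 ^ j := by
  have hn : x < 19683 := hx.trans_le (Nat.pow_le_pow_right (by norm_num) hj)
  suffices h : ∀ k ≤ 9 - j, iv x < 3 ^ (9 - k) by simpa [Nat.sub_sub_self hj] using h _ le_rfl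
  intro k hk
  induction k with
  | zero => exact iv_lt hn
  | succ k ih =>
    have h1 := ih (by omega)
    have e : 9 - k = 9 - (k + 1) + 1 := by omega
    have h2 : x < 3 ^ (9 - (k + 1)) := hx.trans_le (Nat.pow_le_pow_right (by norm_num) (by omega))
    rw [e] at h1
    have h3 := (mu_dig (by omega) (h2.trans (Nat.pow_lt_pow_right (by norm_num) (Nat.lt_succ_self _))) h1).2
    rw [mu_iv hn, Nat.div_eq_of_lt h2, Nat.zero_div, zero_add] at h3
    have h4 : iv x / 3 ^ (9 - (k + 1)) < 3 := by rwa [Nat.div_lt_iff_lt_mul (by positivity), ← pow_succ']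
    rw [Nat.mod_eq_of_lt h4] at h3
    exact (Nat.div_eq_zero_iff_lt (by positivity)).1 h3.symm

/-- an isomorphism from the coded group -/
structure Md (P : Type*) [Group P] where
  el : ℕ → P
  mul : ∀ {x y : ℕ}, x < 19683 → y < 19683 → el (mu x y) = el x * el y
  inj : ∀ {x y : ℕ}, x < 19683 → y < 19683 → el x = el y → x = y
  surj : ∀ g, ∃ x < 19683, el x = g

namespace Md
variable (M : Md P)

theorem el_zero : M.el 0 = 1 := by
  have := M.mul (x := 0) (y := 0) (by norm_num) (by norm_num)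
  rw [mu_zero] at this
  simpa using this

theorem el_iv (hx : x < 19683) : M.el (iv x) = (M.el x)⁻¹ :=
  eq_inv_of_mul_eq_one_right (by rw [← M.mul hx (iv_lt hx), mu_iv hx, M.el_zero])

theorem el_cmc (hx : x < 19683) (hy : y < 19683) : M.el (cmc x y) = cm (M.el x) (M.el y) := by
  rw [cmc, M.mul (iv_lt (mu_lt hy hx)) (mu_lt hx hy), M.el_iv (mu_lt hy hx), M.mul hy hx, M.mul hx hy, cm]; group

theorem el_cjc (hx : x < 19683) (hy : y < 19683) : M.el (cjc x y) = cj (M.el x) (M.el y) := by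
  rw [cjc, M.mul (mu_lt hx hy) (iv_lt hx), M.el_iv hx, M.mul hx hy, cj]

theorem el_cub (hx : x < 19683) : M.el (cub x) = M.el x ^ 3 := by
  rw [cub, M.mul (mu_lt hx hx) hx, M.mul hx hx, pow_three, mul_assoc]

theorem el_eq_one (hx : x < 19683) : M.el x = 1 ↔ x = 0 :=
  ⟨fun h => M.inj hx (by norm_num) (h.trans M.el_zero.symm), fun h => h ▸ M.el_zero⟩

theorem cmB_iff (hx : x < 19683) (hy : y < 19683) : cmB x y = true ↔ M.el x * M.el y = M.el y * M.el x := by
  rw [cmB, Nat.beq_eq, ← M.mul hx hy, ← M.mul hy hx]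
  exact ⟨fun h => by rw [h], M.inj (mu_lt hx hy) (mu_lt hy hx)⟩

/-- the elements with code below `3 ^ j` -/
def G (j : ℕ) : Subgroup P where
  carrier := {g | ∃ x < 3 ^ min j 9, M.el x = g}
  one_mem' := ⟨0, by positivity, M.el_zero⟩
  mul_mem' := by
    rintro _ _ ⟨x, hx, rfl⟩ ⟨y, hy, rfl⟩
    have h : 3 ^ min j 9 ≤ 19683 := Nat.pow_le_pow_right (by norm_num) (min_le_right _ _)
    exact ⟨_, mu_lt_pow (min_le_right _ _) hx hy, M.mul (hx.trans_le h) (hy.trans_le h)⟩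
  inv_mem' := by
    rintro _ ⟨x, hx, rfl⟩
    have h : 3 ^ min j 9 ≤ 19683 := Nat.pow_le_pow_right (by norm_num) (min_le_right _ _)
    exact ⟨_, iv_lt_pow (min_le_right _ _) hx, M.el_iv (hx.trans_le h)⟩

theorem mem_G {j : ℕ} (hj : j ≤ 9) (hx : x < 19683) : M.el x ∈ M.G j ↔ x < 3 ^ j := by
  have h : 3 ^ j ≤ 19683 := Nat.pow_le_pow_right (by norm_num) hj
  refine ⟨fun ⟨y, hy, e⟩ => ?_, fun h => ⟨x, by rwa [min_eq_left hj], rfl⟩⟩
  rw [min_eq_left hj] at hy
  rwa [← M.inj (hy.trans_le h) hx e]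

theorem G_zero : M.G 0 = ⊥ := eq_bot_iff.2 fun _ ⟨x, hx, e⟩ => by
  obtain rfl : x = 0 := by simpa using hx
  rw [← e, M.el_zero]; exact one_mem _

theorem G_ten : M.G 9 = ⊤ := eq_top_iff.2 fun g _ => M.surj g

theorem G_mono {i j : ℕ} (h : i ≤ j) : M.G i ≤ M.G j := fun _ ⟨x, hx, e⟩ =>
  ⟨x, hx.trans_le (Nat.pow_le_pow_right (by norm_num) (min_le_min_right _ h)), e⟩

/-- the conjugate model -/
def conj (s : P) : Md P where
  el x := cj s (M.el x)
  mul hx hy := by rw [M.mul hx hy, cj, cj, cj]; group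
  inj hx hy h := M.inj hx hy (by simpa [cj] using h)
  surj g := let ⟨x, hx, e⟩ := M.surj (cj s⁻¹ g); ⟨x, hx, by rw [e, cj, cj]; group⟩

/-- conjugate models -/
def Sim (M M' : Md P) : Prop := ∃ s, ∀ x, M'.el x = cj s (M.el x)

theorem Sim.refl : M.Sim M := ⟨1, fun _ => by simp [cj]⟩

theorem Sim.trans {M M' M'' : Md P} (h : M.Sim M') (h' : M'.Sim M'') : M.Sim M'' :=
  let ⟨s, hs⟩ := h; let ⟨t, ht⟩ := h'; ⟨t * s, fun x => by rw [ht, hs, cj, cj, cj]; group⟩

theorem sim_conj (s : P) : M.Sim (M.conj s) := ⟨s, fun _ => rfl⟩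

/-- the entries `D` describe the subgroup `H` -/
structure Full (M : Md P) (D : ℕ → ℕ) (H : Subgroup P) : Prop where
  wf : wf D = true
  mem : ∀ j < 9, M.el (D j) ∈ H
  lev : ∀ j < 9, D j = 0 → ∀ y ∈ H, y ∈ M.G (j + 1) → y ∈ M.G j

/-- the subgroup generated by the entries -/
def sg (D : ℕ → ℕ) : Subgroup P := closure {g | ∃ j < 9, M.el (D j) = g}

/-- the subgroup generated by commutators and cubes -/
def _root_.CL.C9.Ph (E : Subgroup P) : Subgroup P :=
  closure ({g | ∃ x ∈ E, ∃ y ∈ E, cm x y = g} ∪ {g | ∃ x ∈ E, x ^ 3 = g})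

/-- the entries `D` describe an `H`-invariant subgroup of `E` -/
def Iv (M : Md P) {E : Subgroup P} (H : Subgroup (MulAut E)) (D : ℕ → ℕ) : Prop :=
  ∃ U ≤ E, M.Full D U ∧ AutInv H U

end Md

end CL.C9
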