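/- S5227: the series of a model. -/
import Cfsg.Agent.FUS.C9.Md
set_option autoImplicit false

namespace CL.C9
open Cfsg CL.Fus CL.K Subgroup
open CL.T3 (cm Ch)

variable {P : Type*} [Group P]

theorem cm_swap (x y : P) : cm x y = (cm y x)⁻¹ := by simp only [cm]; group

theorem cm_mem_of_closure_left {C : Subgroup P} {X : Set P} (hX : X ⊆ normalizer (C : Set P)) {y : P}
    (h : ∀ x ∈ X, cm x y ∈ C) : ∀ x ∈ closure X, cm x y ∈ C := fun x hx => by
  have hn : closure X ≤ normalizer (C : Set P) := (closure_le _).2 hX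
  induction hx using closure_induction with
  | mem x hx => exact h x hx
  | one => simp [cm]
  | mul a b _ hb iha ihb =>
    have := C.mul_mem ((mem_normalizer_iff.1 (inv_mem (hn hb)) _).1 iha) ihb
    convert this using 1
    simp only [cm]; group
  | inv a ha iha =>
    have := C.inv_mem ((mem_normalizer_iff.1 (hn ha) _).1 iha)
    convert this using 1
    simp only [cm]; group

theorem cm_mem_of_closure {C : Subgroup P} {X Y : Set P} (hX : X ⊆ normalizer (C : Set P)) (hY : Y ⊆ normalizer (C : Set P))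
    (h : ∀ x ∈ X, ∀ y ∈ Y, cm x y ∈ C) : ∀ x ∈ closure X, ∀ y ∈ closure Y, cm x y ∈ C := fun x hx y hy =>
  cm_swap x y ▸ C.inv_mem (cm_mem_of_closure_left hY (fun y hy =>
    cm_swap y x ▸ C.inv_mem (cm_mem_of_closure_left hX (fun x hx => h x hx y hy) x hx)) y hy)

theorem pow_le_n {j : ℕ} (hj : j ≤ 9) : 3 ^ j ≤ 19683 := Nat.pow_le_pow_right (n := 3) (j := 9) (by norm_num) hj

namespace Md
variable (M : Md P)

include M in
/-- `el` is a bijection from `Fin 19683` -/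
theorem finite : Finite P :=
  Finite.of_surjective (fun x : Fin 19683 => M.el x) fun g => let ⟨x, hx, e⟩ := M.surj g; ⟨⟨x, hx⟩, e⟩

/-- `G j` is in bijection with `Fin (3 ^ j)` -/
theorem card_G {j : ℕ} (hj : j ≤ 9) : Nat.card (M.G j) = 3 ^ j := by
  have h := pow_le_n hj
  rw [← Nat.card_eq_of_bijective (fun x : Fin (3 ^ j) => (⟨M.el x, (M.mem_G hj (x.2.trans_le h)).2 x.2⟩ : M.G j))
    ⟨fun x y e => Fin.ext (M.inj (x.2.trans_le h) (y.2.trans_le h) (congrArg Subtype.val e)), fun g => ?_⟩, Nat.card_fin]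
  obtain ⟨x, hx, e⟩ := M.surj g
  exact ⟨⟨x, (M.mem_G hj hx).1 (e ▸ g.2)⟩, Subtype.ext e⟩

include M in
theorem pg : IsPGroup 3 (⊤ : Subgroup P) := IsPGroup.of_card (M.G_ten ▸ M.card_G le_rfl)

/-- the top digit -/
theorem exists_dig {j : ℕ} (hj : j < 9) : ∃ f : P → ℕ, (∀ a ∈ M.G (j + 1), f a < 3 ∧ (a ∈ M.G j ↔ f a = 0)) ∧
    ∀ a ∈ M.G (j + 1), ∀ b ∈ M.G (j + 1), f (a * b) = (f a + f b) % 3 := by
  choose c hc e using M.surj
  have h1 : ∀ a ∈ M.G (j + 1), c a < 3 ^ (j + 1) := fun a ha => (M.mem_G hj (hc a)).1 ((e a).symm ▸ ha)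
  refine ⟨fun a => c a / 3 ^ j, fun a ha => ⟨?_, ?_⟩, fun a ha b hb => ?_⟩
  · rw [Nat.div_lt_iff_lt_mul (by positivity), ← pow_succ']; exact h1 a ha
  · rw [Nat.div_eq_zero_iff_lt (by positivity), ← M.mem_G hj.le (hc a), e]
  · have : c (a * b) = mu (c a) (c b) := M.inj (hc _) (mu_lt (hc a) (hc b)) (by rw [M.mul (hc a) (hc b), e, e, e])
    simp only [this]
    exact (mu_dig hj (h1 a ha) (h1 b hb)).2

/-- top digits (`mu_dig`, `mem_G`) -/
theorem tri_right {j : ℕ} (hj : j < 9) {a y : P} (ha : a ∈ M.G (j + 1)) (ha' : a ∉ M.G j) (hy : y ∈ M.G (j + 1)) :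
    y ∈ M.G j ∨ y * a ∈ M.G j ∨ y * a * a ∈ M.G j := by
  obtain ⟨f, h1, h2⟩ := M.exists_dig hj
  have h3 := mul_mem hy ha
  rw [(h1 _ ha).2] at ha'
  rw [(h1 _ hy).2, (h1 _ h3).2, (h1 _ (mul_mem h3 ha)).2, h2 _ h3 _ ha, h2 _ hy _ ha]
  have h4 := (h1 _ ha).1
  have h5 := (h1 _ hy).1
  generalize f a = u at *
  generalize f y = v at *
  interval_cases u <;> interval_cases v <;> simp at ha' ⊢

theorem tri_left {j : ℕ} (hj : j < 9) {a y : P} (ha : a ∈ M.G (j + 1)) (ha' : a ∉ M.G j) (hy : y ∈ M.G (j + 1)) :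
    y ∈ M.G j ∨ a⁻¹ * y ∈ M.G j ∨ (a * a)⁻¹ * y ∈ M.G j := by
  rcases M.tri_right hj ha ha' (inv_mem hy) with h | h | h
  · exact .inl (inv_mem_iff.1 h)
  · exact .inr (.inl (by simpa using inv_mem h))
  · exact .inr (.inr (by simpa [mul_assoc] using inv_mem h))

theorem cube_mem {j : ℕ} (hj : j < 9) {a : P} (ha : a ∈ M.G (j + 1)) : a ^ 3 ∈ M.G j := by
  obtain ⟨f, h1, h2⟩ := M.exists_dig hj
  have h3 := mul_mem ha ha
  rw [pow_three, (h1 _ (mul_mem ha h3)).2, h2 _ ha _ h3, h2 _ ha _ ha]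
  omega

theorem gen_mem {j : ℕ} (hj : j < 9) : M.el (3 ^ j) ∈ M.G (j + 1) ∧ M.el (3 ^ j) ∉ M.G j := by
  have h : 3 ^ j < 3 ^ (j + 1) := Nat.pow_lt_pow_right (by norm_num) (Nat.lt_succ_self _)
  rw [M.mem_G hj (h.trans_le (pow_le_n hj)), M.mem_G hj.le (h.trans_le (pow_le_n hj))]
  exact ⟨h, lt_irrefl _⟩

/-- `G j` is generated by the `el (3 ^ i)`, `i < j` (induction, `tri_right`) -/
theorem G_eq_closure {j : ℕ} (hj : j ≤ 9) : M.G j = closure {g | ∃ i < j, M.el (3 ^ i) = g} := by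
  refine le_antisymm ?_ ((closure_le _).2 ?_)
  · induction j with
    | zero => rw [M.G_zero]; exact bot_le
    | succ j ih =>
      have h1 : M.G j ≤ closure {g | ∃ i < j + 1, M.el (3 ^ i) = g} :=
        (ih (by omega)).trans (closure_mono fun _ ⟨i, hi, e⟩ => ⟨i, by omega, e⟩)
      have h2 : M.el (3 ^ j) ∈ closure {g | ∃ i < j + 1, M.el (3 ^ i) = g} := subset_closure ⟨j, by omega, rfl⟩
      intro y hy
      rcases M.tri_right hj (M.gen_mem hj).1 (M.gen_mem hj).2 hy with h | h | h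
      · exact h1 h
      · exact (mul_mem_cancel_right h2).1 (h1 h)
      · exact (mul_mem_cancel_right h2).1 ((mul_mem_cancel_right h2).1 (h1 h))
  · rintro _ ⟨i, hi, rfl⟩
    exact M.G_mono hi (M.gen_mem (by omega)).1

theorem gen_cm {i k : ℕ} (hi : i < 9) (hk : k < 9) : cm (M.el (3 ^ i)) (M.el (3 ^ k)) ∈ M.G i := by
  have h : ∀ j < 9, 3 ^ j < 19683 := fun j hj => Nat.pow_lt_pow_right (a := 3) (n := 9) (by norm_num) hj
  rw [← M.el_cmc (h i hi) (h k hk), M.mem_G hi.le (cmc_lt (h i hi) (h k hk))]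
  exact (by decide +kernel : ∀ i < 9, ∀ k < 9, cmc (3 ^ i) (3 ^ k) < 3 ^ i) i hi k hk

theorem normal_G (j : ℕ) : (M.G j).Normal := by
  rcases le_total j 9 with hj | hj
  · have := M.finite
    rw [← normalizer_eq_top_iff, eq_top_iff, ← M.G_ten, M.G_eq_closure le_rfl, closure_le]
    rintro _ ⟨k, hk, rfl⟩
    refine inv_mem_iff.1 (mem_normalizer_fintype fun y hy => ?_)
    have h : M.G j ≤ (M.G j).comap (MulAut.conj (M.el (3 ^ k))⁻¹).toMonoidHom := by
      conv_lhs => rw [M.G_eq_closure hj]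
      rw [closure_le]
      rintro _ ⟨i, hi, rfl⟩
      have := mul_mem (M.G_mono hi (M.gen_mem (by omega)).1) (M.G_mono hi.le (M.gen_cm (i := i) (by omega) hk))
      simpa [cm, mul_assoc] using this
    exact h hy
  · rw [show M.G j = ⊤ from eq_top_iff.2 (M.G_ten ▸ M.G_mono hj)]
    infer_instance

theorem cent {j : ℕ} (hj : j < 9) : ∀ x ∈ M.G (j + 1), ∀ y, cm x y ∈ M.G j := fun x hx y => by
  have := M.normal_G j
  have hn : ∀ X : Set P, X ⊆ normalizer (M.G j : Set P) := fun X => by rw [normalizer_eq_top]; exact Set.subset_univ _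
  refine cm_mem_of_closure (hn _) (hn _) ?_ x (M.G_eq_closure hj ▸ hx) y (M.G_eq_closure le_rfl ▸ M.G_ten ▸ mem_top y)
  rintro _ ⟨i, hi, rfl⟩ _ ⟨k, hk, rfl⟩
  exact M.G_mono (by omega) (M.gen_cm (by omega) hk)

theorem Sim.mem_iff {M M' : Md P} (h : M.Sim M') {N : Subgroup P} [N.Normal] (x : ℕ) : M'.el x ∈ N ↔ M.el x ∈ N := by
  obtain ⟨s, hs⟩ := h
  rw [hs, cj, Normal.mem_comm_iff ‹_›, inv_mul_cancel_left]

theorem Sim.G_eq {M M' : Md P} (h : M.Sim M') : M'.G = M.G := funext fun j => by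
  have := M.normal_G j
  have := M'.normal_G j
  refine le_antisymm ?_ ?_ <;> rintro _ ⟨x, hx, rfl⟩
  · exact (h.mem_iff x).2 ⟨x, hx, rfl⟩
  · exact (h.mem_iff x).1 ⟨x, hx, rfl⟩

theorem Sim.full_iff {M M' : Md P} (h : M.Sim M') {N : Subgroup P} [N.Normal] (D : ℕ → ℕ) : M'.Full D N ↔ M.Full D N :=
  ⟨fun f => ⟨f.wf, fun j hj => (h.mem_iff _).1 (f.mem j hj), h.G_eq ▸ f.lev⟩,
    fun f => ⟨f.wf, fun j hj => (h.mem_iff _).2 (f.mem j hj), h.G_eq ▸ f.lev⟩⟩

end Md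

end CL.C9
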