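/- S5227: subgroups described by entries. -/
import Cfsg.Agent.FUS.C9.Gs
set_option autoImplicit false

namespace CL.C9
open Cfsg CL.Fus CL.K Subgroup
open CL.T3 (cm Ch)

variable {P : Type*} [Group P] {D A B U : ℕ → ℕ} {H E X Y C : Subgroup P} {x j : ℕ}

theorem wf_iff : wf D = true ↔ ∀ j < 9, D j = 0 ∨ (3 ^ j ≤ D j ∧ D j < 2 * 3 ^ j) := by
  simp only [wf, wfj, allLt_iff, Bool.or_eq_true, Bool.and_eq_true, isz_iff, Nat.blt_eq, Nat.ble_eq]
  rfl

theorem wf_lt_pow (h : wf D = true) (hj : j < 9) : D j < 3 ^ (j + 1) := by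
  have := wf_iff.1 h j hj
  have : 0 < 3 ^ j := by positivity
  omega

theorem wf_lt (h : wf D = true) (hj : j < 9) : D j < 19683 := (wf_lt_pow h hj).trans_le (pow_le_n hj)

theorem allE_iff {p : ℕ → Bool} : allE D p = true ↔ ∀ j < 9, D j ≠ 0 → p (D j) = true := by
  simp only [allE, allLt_iff, frc_eq, Bool.or_eq_true, isz_iff, or_iff_not_imp_left]

theorem allP_iff {p : ℕ → ℕ → Bool} : allP D p = true ↔ ∀ j < 9, D j ≠ 0 → ∀ i < j, D i ≠ 0 → p (D i) (D j) = true := by
  simp only [allP, allLt_iff, frc_eq, Bool.or_eq_true, isz_iff, or_iff_not_imp_left]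

theorem anyE_iff {p : ℕ → Bool} : anyE D p = true ↔ ∃ j < 9, D j ≠ 0 ∧ p (D j) = true := by
  simp only [anyE, anyLt_iff, frc_eq, Bool.and_eq_true, Bool.not_eq_true', isz_false]

theorem inn_eq : inn D x = true ↔ x < 19683 ∧ sift D 9 x = true := by
  simp only [inn, frc_eq, Bool.and_eq_true, Nat.blt_eq]

theorem inn_lt (h : inn D x = true) : x < 19683 := (inn_eq.1 h).1

theorem sift_succ : sift D (j + 1) x = true ↔ if x < 3 ^ j then sift D j x = true else D j ≠ 0 ∧
    sift D j (if x < 2 * 3 ^ j then mu (mu x (D j)) (D j) else mu x (D j)) = true := by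
  show (bif Nat.blt x (3 ^ j) then sift D j x else !isz (D j) &&
    sift D j (bif Nat.blt x (2 * 3 ^ j) then mu (mu x (D j)) (D j) else mu x (D j))) = true ↔ _
  simp only [Bool.cond_eq_ite, Nat.blt_eq]
  split_ifs <;> simp [isz_false]

namespace Md
variable {M : Md P}

theorem wf_mem (M : Md P) (h : wf D = true) (hj : j < 9) : M.el (D j) ∈ M.G (j + 1) :=
  (M.mem_G hj (wf_lt h hj)).2 (wf_lt_pow h hj)

theorem wf_notMem (M : Md P) (h : wf D = true) (hj : j < 9) (h0 : D j ≠ 0) : M.el (D j) ∉ M.G j := fun e =>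
  absurd ((M.mem_G hj.le (wf_lt h hj)).1 e) (not_lt.2 ((wf_iff.1 h j hj).resolve_left h0).1)

theorem sift_sound (hw : wf D = true) (hj : j ≤ 9) (hm : ∀ i < j, M.el (D i) ∈ H) (hx : x < 19683)
    (h : sift D j x = true) : M.el x ∈ H := by
  induction j generalizing x with
  | zero => rw [isz_iff.1 h, M.el_zero]; exact one_mem _
  | succ j ih =>
    have h1 := wf_lt hw hj
    have h2 := hm j (Nat.lt_succ_self _)
    have ih := fun {x} => ih (x := x) (by omega) fun i hi => hm i (by omega)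
    rw [sift_succ] at h
    split_ifs at h
    · exact ih hx h
    · have := ih (mu_lt (mu_lt hx h1) h1) h.2
      rwa [M.mul (mu_lt hx h1) h1, M.mul hx h1, mul_mem_cancel_right h2, mul_mem_cancel_right h2] at this
    · have := ih (mu_lt hx h1) h.2
      rwa [M.mul hx h1, mul_mem_cancel_right h2] at this

theorem _root_.CL.C9.sift_down {k : ℕ} (hx : x < 3 ^ j) (hk : j ≤ k) (h : sift D k x = true) : sift D j x = true := by
  induction hk with
  | refl => exact h
  | step hk ih => exact ih (by rwa [sift_succ, if_pos (hx.trans_le (Nat.pow_le_pow_right (by norm_num) hk))] at h)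

/-- soundness; only the entries below `j` are used for `x < 3 ^ j` -/
theorem inn_sound' (hw : wf D = true) (hj : j ≤ 9) (hm : ∀ i < j, M.el (D i) ∈ H) (hx : x < 3 ^ j) (h : inn D x = true) :
    M.el x ∈ H := sift_sound hw hj hm (inn_lt h) (sift_down hx hj (inn_eq.1 h).2)

theorem inn_sound (hw : wf D = true) (hm : ∀ i < 9, M.el (D i) ∈ H) (h : inn D x = true) : M.el x ∈ H :=
  inn_sound' hw le_rfl hm (inn_lt h) h

theorem Full.sift (h : M.Full D H) (hj : j ≤ 9) (hx : x < 3 ^ j) (hH : M.el x ∈ H) : sift D j x = true := by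
  induction j generalizing x with
  | zero => exact isz_iff.2 (by omega)
  | succ j ih =>
    have ih := fun {x} => ih (x := x) (by omega)
    have hn := hx.trans_le (pow_le_n hj)
    have h1 := wf_lt h.wf hj
    have h2 := h.mem j hj
    have h3 : 0 < 3 ^ j := by positivity
    rw [sift_succ]
    by_cases h4 : x < 3 ^ j
    · rw [if_pos h4]; exact ih h4 hH
    have h0 : D j ≠ 0 := fun e => h4 ((M.mem_G (by omega) hn).1 (h.lev j hj e _ hH ((M.mem_G hj hn).2 hx)))
    have h5 := (wf_iff.1 h.wf j hj).resolve_left h0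
    have h6 : D j / 3 ^ j = 1 := Nat.div_eq_of_lt_le (by omega) (by omega)
    have h7 := mu_dig hj hx (wf_lt_pow h.wf hj)
    have h8 := mu_dig hj h7.1 (wf_lt_pow h.wf hj)
    rw [if_neg h4]
    refine ⟨h0, ?_⟩
    split_ifs with h9
    · rw [h7.2, h6, Nat.div_eq_of_lt_le (k := 1) (m := x) (by omega) (by omega)] at h8
      exact ih ((Nat.div_eq_zero_iff_lt h3).1 h8.2) (by
        rw [M.mul (mu_lt hn h1) h1, M.mul hn h1]; exact mul_mem (mul_mem hH h2) h2)
    · rw [h6, Nat.div_eq_of_lt_le (k := 2) (m := x) (by omega) (by omega)] at h7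
      exact ih ((Nat.div_eq_zero_iff_lt h3).1 h7.2) (by rw [M.mul hn h1]; exact mul_mem hH h2)

/-- completeness -/
theorem Full.inn_iff (h : M.Full D H) (hx : x < 19683) : inn D x = true ↔ M.el x ∈ H :=
  ⟨inn_sound h.wf h.mem, fun e => inn_eq.2 ⟨hx, h.sift le_rfl hx e⟩⟩

theorem Full.le (h : M.Full D H) (hm : ∀ j < 9, D j ≠ 0 → M.el (D j) ∈ X) : H ≤ X := fun g hg => by
  obtain ⟨x, hx, rfl⟩ := M.surj g
  refine inn_sound h.wf (fun j hj => ?_) ((h.inn_iff hx).2 hg)
  by_cases h0 : D j = 0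
  · rw [h0, M.el_zero]; exact one_mem _
  · exact hm j hj h0

theorem Full.unique (h : M.Full D H) (h' : M.Full D X) : H = X :=
  le_antisymm (h.le fun j hj _ => h'.mem j hj) (h'.le fun j hj _ => h.mem j hj)

theorem Full.eq_closure (h : M.Full D H) : H = closure {g | ∃ j < 9, D j ≠ 0 ∧ M.el (D j) = g} :=
  le_antisymm (h.le fun j hj h0 => subset_closure ⟨j, hj, h0, rfl⟩) ((closure_le _).2 (by
    rintro _ ⟨j, hj, -, rfl⟩; exact h.mem j hj))

theorem full_bot (M : Md P) : M.Full (en 0) ⊥ :=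
  ⟨by decide +kernel, fun j hj => by rw [(by decide +kernel : ∀ j < 9, en 0 j = 0) j hj, M.el_zero]; exact one_mem _,
    fun _ _ _ _ hy _ => mem_bot.1 hy ▸ one_mem _⟩

/-- the entries `3 ^ i`, `i < j` -/
theorem full_G (M : Md P) (hj : j ≤ 9) (h : ∀ i < 9, D i = if i < j then 3 ^ i else 0) : M.Full D (M.G j) := by
  have _ := hj
  refine ⟨wf_iff.2 fun i hi => ?_, fun i hi => ?_, fun i hi h0 y hy _ => M.G_mono ?_ hy⟩
  · have : 0 < 3 ^ i := by positivity
    rw [h i hi]; split_ifs <;> omega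
  · rw [h i hi]
    split_ifs with h1
    · exact M.G_mono h1 (M.gen_mem hi).1
    · rw [M.el_zero]; exact one_mem _
  · rw [h i hi] at h0
    split_ifs at h0 with h1
    · exact absurd h0 (by positivity)
    · omega

theorem Full.card_inf (h : M.Full D H) (hj : j ≤ 9) :
    Nat.card ↥(H ⊓ M.G j) = 3 ^ ((List.range j).filter fun j => !isz (D j)).length := by
  have := M.finite
  induction j with
  | zero => simp [M.G_zero]
  | succ j ih =>
    have hle : H ⊓ M.G j ≤ H ⊓ M.G (j + 1) := inf_le_inf_left _ (M.G_mono (Nat.le_succ _))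
    rw [List.range_succ, List.filter_append, List.length_append, pow_add, ← ih (by omega)]
    by_cases h0 : D j = 0
    · rw [le_antisymm hle fun y hy => ⟨hy.1, h.lev j hj h0 y hy.1 hy.2⟩]
      simp [isz_iff.2 h0]
    · have key : ∀ {U V : Subgroup P}, U ≤ V → Nat.card U * U.relIndex V = Nat.card V := fun {U V} h => by
        rw [relIndex, ← Nat.card_congr (subgroupOfEquivOfLe h).toEquiv, card_mul_index]
      have h3 : (M.G j).relIndex (M.G (j + 1)) = 3 := by
        have := key (M.G_mono (Nat.le_succ j))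
        rw [M.card_G hj, M.card_G (by omega), pow_succ] at this
        exact Nat.eq_of_mul_eq_mul_left (by positivity) this
      have := M.normal_G j
      have h4 : (M.G j).relIndex (H ⊓ M.G (j + 1)) ∣ 3 := by
        rw [← relIndex_sup_right, ← h3]
        exact ⟨_, (relIndex_mul_relIndex _ _ _ le_sup_right (sup_le inf_le_right (M.G_mono (Nat.le_succ j)))).symm⟩
      have h5 : (H ⊓ M.G j).relIndex (H ⊓ M.G (j + 1)) = (M.G j).relIndex (H ⊓ M.G (j + 1)) := by
        rw [← inf_relIndex_right (M.G j), inf_comm (M.G j), inf_assoc, inf_eq_right.2 (M.G_mono (Nat.le_succ j))]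
      rw [← key hle, h5, ((Nat.dvd_prime Nat.prime_three).1 h4).resolve_left fun e =>
        M.wf_notMem h.wf hj h0 (relIndex_eq_one.1 e ⟨h.mem j hj, M.wf_mem h.wf hj⟩)]
      simp [isz_false.2 h0]

theorem Full.card (h : M.Full D H) : Nat.card H = 3 ^ ((List.range 9).filter fun j => !isz (D j)).length := by
  rw [← h.card_inf le_rfl, M.G_ten, inf_top_eq]

theorem Full.cm_mem (hA : M.Full A X) (hB : M.Full B Y) (hX : X ≤ normalizer (C : Set P)) (hY : Y ≤ normalizer (C : Set P))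
    (h : ∀ i < 9, A i ≠ 0 → ∀ j < 9, B j ≠ 0 → cm (M.el (A i)) (M.el (B j)) ∈ C) : ∀ x ∈ X, ∀ y ∈ Y, cm x y ∈ C :=
  fun x hx y hy => cm_mem_of_closure (by rintro _ ⟨j, hj, -, rfl⟩; exact hX (hA.mem j hj))
    (by rintro _ ⟨j, hj, -, rfl⟩; exact hY (hB.mem j hj))
    (by rintro _ ⟨i, hi, h0, rfl⟩ _ ⟨j, hj, h1, rfl⟩; exact h i hi h0 j hj h1) x (hA.eq_closure ▸ hx) y (hB.eq_closure ▸ hy)

theorem Full.cm_mem_left (hA : M.Full A X) (hX : X ≤ normalizer (C : Set P)) {y : P} (hy : y ∈ normalizer (C : Set P))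
    (h : ∀ i < 9, A i ≠ 0 → cm (M.el (A i)) y ∈ C) : ∀ x ∈ X, cm x y ∈ C :=
  have _ := hy
  fun x hx => cm_mem_of_closure_left (by rintro _ ⟨j, hj, -, rfl⟩; exact hX (hA.mem j hj))
    (by rintro _ ⟨i, hi, h0, rfl⟩; exact h i hi h0) x (hA.eq_closure ▸ hx)

/-- `s` maps the generators into the finite group `X` -/
theorem Full.mem_normalizer (hA : M.Full A X) {s : P} (h : ∀ i < 9, A i ≠ 0 → cm (M.el (A i)) s ∈ X) :
    s ∈ normalizer (X : Set P) := by
  have := M.finite
  refine inv_mem_iff.1 (mem_normalizer_fintype fun y hy => ?_)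
  exact hA.le (X := X.comap (MulAut.conj s⁻¹).toMonoidHom) (fun j hj h0 => by
    simpa [cm, mul_assoc] using mul_mem (hA.mem j hj) (h j hj h0)) hy

theorem Full.comm (hA : M.Full A X) {s : P} (h : ∀ i < 9, A i ≠ 0 → M.el (A i) * s = s * M.el (A i)) :
    ∀ x ∈ X, x * s = s * x := fun _ hx =>
  mem_centralizer_singleton_iff.1 (hA.le (fun j hj h0 => mem_centralizer_singleton_iff.2 (h j hj h0)) hx)

end Md

end CL.C9
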