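/- S5227: transversals and polycyclic sequences. -/
import Cfsg.Agent.FUS.C9.Fu
set_option autoImplicit false

namespace CL.C9
open Cfsg CL.Fus CL.K Subgroup
open CL.T3 (cm Ch)

variable {P : Type*} [Group P] {A U : ℕ → ℕ} {H E : Subgroup P}

namespace Md
variable {M : Md P}

theorem _root_.CL.C9.allT_succ {p : ℕ → Bool} {j t : ℕ} : allT A U p (j + 1) t = true ↔ allT A U p j t = true ∧
    (A j = 0 ∨ U j ≠ 0 ∨ allT A U p j (mu t (A j)) = true ∧ allT A U p j (mu (mu t (A j)) (A j)) = true) := by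
  change (allT A U p j t && (isz (A j) || (!isz (U j) || (allT A U p j (mu t (A j)) &&
    allT A U p j (mu (mu t (A j)) (A j)))))) = true ↔ _
  simp only [Bool.and_eq_true, Bool.or_eq_true, Bool.not_eq_true', isz_iff, isz_false]

theorem Full.allT_step (hA : M.Full A E) {p : ℕ → Bool} {j t : ℕ} (hj : j < 9) (ht : t < 19683) (hE : M.el t ∈ E) (h0 : U j = 0)
    (h : allT A U p (j + 1) t = true) {y : P} (hy : y ∈ E) (hy' : y ∈ M.G (j + 1)) :
    ∃ t' < 19683, M.el t' ∈ E ∧ allT A U p j t' = true ∧ ∃ y' ∈ E, y' ∈ M.G j ∧ M.el t * y = M.el t' * y' := by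
  obtain ⟨a, b⟩ := allT_succ.1 h
  by_cases e : A j = 0
  · exact ⟨t, ht, hE, a, y, hy, hA.lev j hj e y hy hy', rfl⟩
  obtain ⟨b, c⟩ := (b.resolve_left e).resolve_left (not_not.2 h0)
  have l := wf_lt hA.wf hj
  have m := hA.mem j hj
  rcases M.tri_left hj (M.wf_mem hA.wf hj) (M.wf_notMem hA.wf hj e) hy' with k | k | k
  · exact ⟨t, ht, hE, a, y, hy, k, rfl⟩
  · exact ⟨_, mu_lt ht l, M.mul ht l ▸ mul_mem hE m, b, _, mul_mem (inv_mem m) hy, k, by rw [M.mul ht l]; group⟩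
  · exact ⟨_, mu_lt (mu_lt ht l) l, by rw [M.mul (mu_lt ht l) l, M.mul ht l]; exact mul_mem (mul_mem hE m) m, c, _,
      mul_mem (inv_mem (mul_mem m m)) hy, k, by rw [M.mul (mu_lt ht l) l, M.mul ht l]; group⟩

theorem Full.allT_dec (hA : M.Full A E) (hH : H ≤ E) (hw : C9.wf U = true) (hm : ∀ j < 9, M.el (U j) ∈ H) {p : ℕ → Bool}
    {j : ℕ} (hj : j ≤ 9) : ∀ t < 19683, M.el t ∈ E → allT A U p j t = true → ∀ y ∈ E, y ∈ M.G j →
      ∃ x < 19683, (x = 0 ∨ p x = true) ∧ M.el x ∈ E ∧ (M.el x)⁻¹ * (M.el t * y) ∈ H ⊓ M.G j := by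
  induction j with
  | zero =>
    intro t ht hE h y _ hy
    obtain rfl : y = 1 := by simpa [M.G_zero] using hy
    exact ⟨t, ht, (Bool.or_eq_true_iff.1 h).imp_left isz_iff.1, hE, by simp⟩
  | succ j ih =>
    intro t ht hE h y hy hy'
    have l : H ⊓ M.G j ≤ H ⊓ M.G (j + 1) := inf_le_inf_left _ (M.G_mono j.le_succ)
    by_cases e : U j = 0
    · obtain ⟨t', a, b, c, y', d, f, g⟩ := hA.allT_step hj ht hE e h hy hy'
      obtain ⟨x, i, k, m, n⟩ := ih (by omega) t' a b c y' d f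
      exact ⟨x, i, k, m, g ▸ l n⟩
    have u : M.el (U j) ∈ H ⊓ M.G (j + 1) := ⟨hm j hj, M.wf_mem hw hj⟩
    have k : ∀ z ∈ H ⊓ M.G (j + 1), y * z ∈ M.G j →
        ∃ x < 19683, (x = 0 ∨ p x = true) ∧ M.el x ∈ E ∧ (M.el x)⁻¹ * (M.el t * y) ∈ H ⊓ M.G (j + 1) := fun z hz e => by
      obtain ⟨x, i, k, m, n⟩ := ih (by omega) t ht hE (allT_succ.1 h).1 _ (mul_mem hy (hH hz.1)) e
      exact ⟨x, i, k, m, by simpa only [mul_assoc, mul_inv_cancel, mul_one] using mul_mem (l n) (inv_mem hz)⟩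
    rcases M.tri_right hj u.2 (M.wf_notMem hw hj e) hy' with c | c | c
    exacts [k 1 (one_mem _) (by rwa [mul_one]), k _ u c, k _ (mul_mem u u) (by rwa [← mul_assoc])]

/-- part 1.  Claim, by induction on `j ≤ 9`: if `t < 19683`, `el t ∈ E \ G j`, `allT A U p j t`, `y ∈ E ⊓ G j`, then `el t * y ∉ H`.
Step: if `U j ≠ 0` replace `y` by `y`, `y u` or `y u u ∈ G j` (`tri_right`); if `A j = 0` then `y ∈ G j` (`lev`); else `y = a ^ d y'` (`tri_left`) and
`el t * a ^ d ∉ G (j + 1)`.  Also `allT A U p (j + 1) 0 → allT A U p j 0`.  For `y ∈ H ⊓ G (j + 1) \ G j` with `U j = 0`: `A j ≠ 0`,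
`y = a ^ d y'`, `d = 1, 2`, and the claim for `t = mu 0 a` or `mu (mu 0 a) a` gives `y ∉ H`. -/
theorem Full.of_allT (hA : M.Full A E) (hH : H ≤ E) (hw : C9.wf U = true) (hm : ∀ j < 9, M.el (U j) ∈ H) {p : ℕ → Bool}
    (h : allT A U p 9 0 = true) (hp : ∀ t < 19683, M.el t ∈ E → p t = true → M.el t ∉ H) : M.Full U H := by
  refine ⟨hw, hm, fun j hj e y hy hy' => ?_⟩
  have : ∀ k, allT A U p k 0 = true → j + 1 ≤ k → allT A U p (j + 1) 0 = true := fun k a b => by
    induction b with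
    | refl => exact a
    | step _ ih => exact ih (allT_succ.1 a).1
  obtain ⟨t, a, b, c, y', d, f, g⟩ := hA.allT_step hj (by norm_num) (M.el_zero ▸ one_mem E) e (this 9 h hj) (hH hy) hy'
  obtain ⟨x, i, k, m, n⟩ := hA.allT_dec hH hw hm hj.le t a b c y' d f
  rw [← g, M.el_zero, one_mul] at n
  obtain rfl := k.resolve_right fun e => hp x i m e (inv_mem_iff.1 ((mul_mem_cancel_right hy).1 n.1))
  simpa [M.el_zero] using n.2

/-- part 2.  Induction on `j`: `allT A 0 p j t`, `y ∈ E ⊓ G j`, `el x = el t * y` give `x = 0 ∨ p x` (`inj`). -/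
theorem Full.forall_of_allT (hA : M.Full A E) {p : ℕ → Bool} (h : allT A (fun _ => 0) p 9 0 = true) {x : ℕ}
    (hx : x < 19683) (hE : M.el x ∈ E) : x = 0 ∨ p x = true := by
  obtain ⟨y, a, b, -, c⟩ := hA.allT_dec bot_le (wf_iff.2 fun _ _ => .inl rfl) (fun _ _ => M.el_zero) le_rfl 0 (by norm_num)
    (M.el_zero ▸ one_mem E) h _ hE (M.G_ten ▸ mem_top _)
  rwa [← M.inj a hx (by simpa [M.el_zero, inv_mul_eq_one] using c.1)]

/-- part 3.  `K j = closure {el (U i) | i < j} ≤ G j`.  Induction on `j`: the levels of `K j` are levels of `U`.  `u = el (U j)` normalizes `K j` (the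
`cm (el (U i)) u` lie in `G i` by `cent`, so in `K j` by `inn_sound'`), `u ^ 3 ∈ K j` (`cube_mem`, `inn_sound'`); so every element of `K (j + 1)` is
`u ^ d y`, `y ∈ K j`, `d < 3`, and lies in `G j` only for `d = 0` or `U j = 0`. -/
theorem full_of_pcB (M : Md P) (h : pcB U = true) : M.Full U (M.sg U) := by
  have := M.finite
  simp only [pcB, Bool.and_eq_true, allE_iff, allP_iff] at h
  obtain ⟨hw, h3, hc⟩ := h
  let K : ℕ → Subgroup P := fun j => closure {g | ∃ i < j, M.el (U i) = g}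
  have m : ∀ j, ∀ i < j, M.el (U i) ∈ K j := fun j i hi => subset_closure ⟨i, hi, rfl⟩
  have KG : ∀ j ≤ 9, K j ≤ M.G j := fun j hj => (closure_le _).2 (by
    rintro _ ⟨i, hi, rfl⟩; exact M.G_mono hi (M.wf_mem hw (hi.trans_le hj)))
  have K0 : ∀ j, U j = 0 → K (j + 1) ≤ K j := fun j e => (closure_le _).2 (by
    rintro _ ⟨i, hi, rfl⟩
    rcases (Nat.lt_succ_iff.1 hi).eq_or_lt with rfl | hi
    exacts [by rw [e, M.el_zero]; exact one_mem _, m j i hi])
  have s : ∀ j < 9, ∀ x, inn U x = true → M.el x ∈ M.G j → M.el x ∈ K j := fun j hj x a b =>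
    inn_sound' hw hj.le (m j) ((M.mem_G hj.le (inn_lt a)).1 b) a
  have R : ∀ j < 9, ∀ w ∈ K (j + 1), w ∈ M.G j → w ∈ K j := fun j hj w a b => by
    by_cases e : U j = 0
    · exact K0 j e a
    have l := wf_lt hw hj
    have n : (M.el (U j))⁻¹ ∈ normalizer (K j : Set P) := mem_normalizer_fintype fun g hg => by
      refine (show K j ≤ (K j).comap (MulAut.conj (M.el (U j))⁻¹).toMonoidHom from (closure_le _).2 ?_) hg
      rintro _ ⟨i, hi, rfl⟩
      by_cases f : U i = 0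
      · rw [f, M.el_zero]; exact one_mem _
      have := s j hj _ (hc j hj e i hi f)
      rw [M.el_cmc (wf_lt hw (hi.trans hj)) l] at this
      simpa [cm, mul_assoc] using mul_mem (m j i hi) (this (M.G_mono hi.le (M.cent (hi.trans hj) _ (M.wf_mem hw (hi.trans hj)) _)))
    have c := s j hj _ (h3 j hj e)
    rw [M.el_cub l] at c
    replace c := c (M.cube_mem hj (M.wf_mem hw hj))
    have n0 := M.wf_notMem hw hj e
    have : w ∈ zpowers (M.el (U j)) ⊔ K j := (closure_le _).2 (by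
      rintro _ ⟨i, hi, rfl⟩
      rcases (Nat.lt_succ_iff.1 hi).eq_or_lt with rfl | hi
      exacts [mem_sup_left (mem_zpowers _), mem_sup_right (m j i hi)]) a
    rw [← SetLike.mem_coe, coe_mul_of_left_le_normalizer_right _ _ (zpowers_le.2 (inv_mem_iff.1 n))] at this
    obtain ⟨_, ⟨k, rfl⟩, y, hy, rfl⟩ := this
    beta_reduce at b ⊢
    generalize M.el (U j) = u at *
    have e : u ^ k = (u ^ 3) ^ (k / 3) * u ^ (k % 3) := by
      rw [← zpow_natCast, ← zpow_mul, ← zpow_add]; exact congrArg _ (by omega)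
    have q := zpow_mem c (k / 3)
    have r := (mul_mem_cancel_left (KG j hj.le q)).1 (e ▸ (mul_mem_cancel_right (KG j hj.le hy)).1 b)
    refine mul_mem (e ▸ mul_mem q ?_) hy
    obtain f | f | f : k % 3 = 0 ∨ k % 3 = 1 ∨ k % 3 = 2 := by omega
    · rw [f, zpow_zero]; exact one_mem _
    · exact (n0 (by simpa [f] using r)).elim
    · rw [f, zpow_two] at r
      exact (n0 ((mul_mem_cancel_right r).1 (pow_three u ▸ KG j hj.le c))).elim
  refine ⟨hw, m 9, fun j hj e y hy hy' => KG j hj.le (K0 j e ?_)⟩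
  have : ∀ k, j + 1 ≤ k → k ≤ 9 → y ∈ K k → y ∈ K (j + 1) := fun k a => by
    induction a with
    | refl => exact fun _ => id
    | step a ih => exact fun b c => ih (by omega) (R _ b y c (M.G_mono a hy'))
  exact this 9 hj le_rfl hy

end Md

end CL.C9
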