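/- S5227: invariant subgroups, and subgroups that are not essential. -/
import Cfsg.Agent.FUS.C9.Tr
import Cfsg.Agent.PLOC.PFrattini
import Cfsg.Agent.FUS.SR3Loc
set_option autoImplicit false
set_option linter.unusedVariables false

namespace CL.C9
open Cfsg CL.Fus CL.K Subgroup
open CL.T3 (cm Ch)

variable {P : Type*} [Group P] {A B C U F x y z : ℕ → ℕ} {E X : Subgroup P} {H : Subgroup (MulAut E)}

namespace Inv

theorem cm_inv (a b : P) : (cm a b)⁻¹ = cm b a := by simp only [cm]; group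

theorem cm_mem {a b : P} (ha : a ∈ E) (hb : b ∈ E) : cm a b ∈ E :=
  mul_mem (mul_mem (mul_mem (inv_mem ha) (inv_mem hb)) ha) hb

theorem aut_cm (α : MulAut E) {a b : P} (ha : a ∈ E) (hb : b ∈ E) :
    autFun α (cm a b) = cm (autFun α a) (autFun α b) := by
  have h := isHomOn_autFun α
  rw [cm, h (mul_mem (mul_mem (inv_mem ha) (inv_mem hb)) ha) hb, h (mul_mem (inv_mem ha) (inv_mem hb)) ha,
    h (inv_mem ha) (inv_mem hb), h.map_inv ha, h.map_inv hb, cm]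

theorem inv_closure {s : Set P} (hs : closure s ≤ E) (h : ∀ α ∈ H, ∀ a ∈ s, autFun α a ∈ s) : AutInv H (closure s) :=
  fun α hα a _ ha => by
    have k := isHomOn_autFun α
    induction ha using closure_induction with
    | mem a ha => exact subset_closure (h α hα a ha)
    | one => rw [k.map_one]; exact one_mem _
    | mul a b ha hb i j => rw [k (hs ha) (hs hb)]; exact mul_mem (i (hs ha)) (j (hs hb))
    | inv a ha i => rw [k.map_inv (hs ha)]; exact inv_mem (i (hs ha))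

end Inv

/-- part 1: `Ph`. -/
theorem Ph_le (E : Subgroup P) : Ph E ≤ E := by
  refine (closure_le _).2 ?_
  rintro _ (⟨a, ha, b, hb, rfl⟩ | ⟨a, ha, rfl⟩)
  · exact Inv.cm_mem ha hb
  · exact pow_mem ha 3

theorem autInv_Ph (hX : X ≤ E) (h : AutInv H X) : AutInv H (Ph X) := by
  refine Inv.inv_closure ((Ph_le X).trans hX) fun α hα => ?_
  rintro _ (⟨a, ha, b, hb, rfl⟩ | ⟨a, ha, rfl⟩)
  · exact .inl ⟨_, h α hα a (hX ha) ha, _, h α hα b (hX hb) hb, (Inv.aut_cm α (hX ha) (hX hb)).symm⟩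
  · exact .inr ⟨_, h α hα a (hX ha) ha, ((isHomOn_autFun α).map_pow (hX ha) 3).symm⟩

/-- `CL.PG.frattini_le_iff` / `frattini_eq_sup` in `↥E` -/
theorem Ph_eq [Finite E] (hE : IsPGroup 3 E) : Ph E = (frattini E).map E.subtype := by
  refine le_antisymm ((closure_le _).2 ?_) ((PG.frattini_map_subtype_le_iff hE).2
    ⟨commutator_le.2 fun a ha b hb => subset_closure (.inl ⟨_, inv_mem ha, _, inv_mem hb, ?_⟩),
      fun a ha => subset_closure (.inr ⟨a, ha, rfl⟩)⟩)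
  · rintro _ (⟨a, ha, b, hb, rfl⟩ | ⟨a, ha, rfl⟩)
    · simpa [commutatorElement_def, cm] using
        PG.commutator_le_frattini_map hE (commutator_mem_commutator (inv_mem ha) (inv_mem hb))
    · exact PG.pow_mem_frattini_map hE ha
  · simp [commutatorElement_def, cm]

/-- an invariant subgroup is normalized by `s` if conjugation by `s` is in `H` (use `s` and `s⁻¹`) -/
theorem mem_normalizer_of_autInv (hX : X ≤ E) (h : AutInv H X) {s : P} (hs : s ∈ normalizer (E : Set P))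
    (hH : cjAut E s hs ∈ H) : s ∈ normalizer (X : Set P) := by
  refine mem_normalizer_iff.2 fun a => ⟨fun ha => ?_, fun ha => ?_⟩
  · exact (autFun_cjAut hs (hX ha) ▸ h _ hH a (hX ha) ha :)
  · have := h _ (inv_mem hH) _ (hX ha) ha
    rw [← cjAut_inv, autFun_cjAut _ (hX ha)] at this
    simpa [cj, mul_assoc] using this

theorem le_normalizer_of_autInv (hX : X ≤ E) (h : AutInv H X) (hH : Inn E ≤ H) : E ≤ normalizer (X : Set P) := by
  exact fun s hs => mem_normalizer_of_autInv hX h (le_normalizer hs)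
    (hH (inn_eq_autInducedBy E ▸ cjAut_mem_autInducedBy hs _))

/-- the `a ∈ X` with `[a, u] ∈ Y` -/
def cgp (X Y : Subgroup P) (u : P) (n : X ≤ normalizer (Y : Set P)) : Subgroup P where
  carrier := {a | a ∈ X ∧ cm a u ∈ Y}
  one_mem' := ⟨one_mem _, by simp [cm, one_mem]⟩
  inv_mem' := fun {a} ha => ⟨inv_mem ha.1, by
    convert (mem_normalizer_iff.1 (n ha.1) _).1 (inv_mem ha.2) using 1
    simp [cm, mul_assoc]⟩
  mul_mem' := fun {a a'} ha ha' => ⟨mul_mem ha.1 ha'.1, by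
    convert mul_mem ((mem_normalizer_iff.1 (n (inv_mem ha'.1)) _).1 ha.2) ha'.2 using 1
    simp [cm, mul_assoc]⟩

theorem cm_mem_of_norm {s a : P} (hs : s ∈ normalizer (X : Set P)) (ha : a ∈ X) : cm a s ∈ X := by
  simpa [cm, mul_assoc] using mul_mem (inv_mem ha) ((mem_normalizer_iff.1 (inv_mem hs) _).1 ha)

theorem coe_cjAut_inv {s : P} (hs : s ∈ normalizer (E : Set P)) (a : E) :
    ((a⁻¹ * cjAut E s⁻¹ (inv_mem hs) a : E) : P) = cm (a : P) s := by
  simp [cjAut_apply, cj, cm, mul_assoc]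

/-- an element that stabilizes a characteristic chain above `Φ(E)` -/
theorem not_essential_of_chain [Finite P] (hP : IsPGroup 3 (⊤ : Subgroup P)) {D : FusionSystem (⊤ : Subgroup P)}
    (hD : D.IsSaturated 3) {Y : Subgroup P} (h0 : Ph E ≤ X) (hXY : X ≤ Y) (cX : Ch E X) (cY : Ch E Y) {s : P}
    (hs : s ∈ normalizer (E : Set P)) (hs' : s ∉ E) (h1 : ∀ y ∈ E, cm y s ∈ Y) (h2 : ∀ y ∈ Y, cm y s ∈ X)
    (h3 : ∀ y ∈ X, cm y s ∈ Ph E) : ¬ D.IsEssential 3 E := by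
  intro hE
  have r := EssSm.rad_of_essential hP hD hE (mem_top _) (inv_mem hs) (mt (inv_mem_iff.1) hs')
  have i : ∀ {Z : Subgroup P}, Ch E Z → EssSm.Inv (D.autGroup E) (Z.subgroupOf E) := fun h g a ha =>
    mem_subgroupOf.2 (autFun_coe g.1 a ▸ h g trivial a a.2 ha)
  refine r.notMem (r.mem_inn (A := X.subgroupOf E) (B := Y.subgroupOf E) (fun a ha => h0 (Ph_eq r.pg ▸ mem_map_of_mem _ ha))
    (fun a ha => hXY ha) (i cX) (i cY) r.mem (fun a ha => (mem_map_iff_mem E.subtype_injective).1 ?_)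
    (fun a ha => mem_subgroupOf.2 ((coe_cjAut_inv hs a).symm ▸ h2 a ha)) fun a =>
      mem_subgroupOf.2 ((coe_cjAut_inv hs a).symm ▸ h1 a a.2))
  exact (Ph_eq r.pg ▸ (coe_cjAut_inv hs a).symm ▸ h3 a ha :)

/-- a transvection on `E / Φ(E)` generates `N(E) / E` -/
theorem mem_of_tv [Finite P] (hP : IsPGroup 3 (⊤ : Subgroup P)) {D : FusionSystem (⊤ : Subgroup P)}
    (hD : D.IsSaturated 3) (hE : D.IsEssential 3 E) {L : Subgroup P} (h0 : Ph E ≤ L) (hL : L ≤ E) (hi : L.relIndex E = 3)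
    {u s : P} (hu : u ∈ normalizer (E : Set P)) (hu' : u ∉ E) (h1 : ∀ y ∈ L, cm y u ∈ Ph E)
    (hs : s ∈ normalizer (E : Set P)) : s ∈ E ∨ u * s ∈ E ∨ u * (u * s) ∈ E := by
  have : Fact (Nat.Prime 3) := ⟨Nat.prime_three⟩
  have hr := EssSm.rad_of_essential hP hD hE (mem_top _) (inv_mem hu) (mt (inv_mem_iff.1) hu')
  have hc : ⁅E, E⁆ ≤ Ph E := Ph_eq hr.pg ▸ PG.commutator_le_frattini_map hr.pg
  have hI : ∀ α ∈ D.autGroup E, (∀ y ∈ E, y⁻¹ * autFun α y ∈ Ph E) ↔ α ∈ Inn E := fun α hα =>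
    ⟨fun h => have k : ∀ y : E, y⁻¹ * α y ∈ frattini E := fun y =>
        (mem_map_iff_mem E.subtype_injective).1 (Ph_eq hr.pg ▸ autFun_coe α y ▸ h y y.2 :)
      hr.mem_inn le_rfl le_rfl (EssSm.inv_of_char _ _) (EssSm.inv_of_char _ _) hα (fun y _ => k y) (fun y _ => k y) k,
      fun h y hy => have ⟨g, hg, e⟩ := mem_inn_iff.1 h; e hy ▸ by
        have : cm y g⁻¹ ∈ Ph E := subset_closure (.inl ⟨y, hy, g⁻¹, inv_mem hg, rfl⟩)
        simpa [cm, cj, mul_assoc] using this⟩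
  obtain ⟨⟨k1, k2⟩, -⟩ := SR3.exists_tvS (L := L) hr.pg (sylIn_of_fullyNormalized hP hD hE.2.1)
    (cjAut_mem_autInducedBy (mem_top u⁻¹) (inv_mem hu)) le_rfl (autInv_of_le _ le_rfl)
    (autInv_Ph le_rfl (autInv_of_le _ le_rfl)) h0 hL hc hi
    (fun y hy => by rw [autFun_cjAut _ (hL hy)]; simpa [cm, cj, mul_assoc] using h1 y hy)
    (fun e => hr.notMem ((hI _ hr.mem).1 e))
    fun ψ ρ _ _ _ hker => ⟨_, SR3.relSPE_map (relSPE_extAut_of_essential hP hD hE) (autInducedBy_le_autGroup D le_top) ρ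
      fun α => (hker α).trans (hI α α.2)⟩
  have k : ∀ {g} (hg : g ∈ normalizer (E : Set P)), (∀ y ∈ E, y⁻¹ * autFun (cjAut E g hg) y ∈ Ph E) → g ∈ E :=
    fun hg h => (cjAut_mem_inn_iff le_top (centralizerIn_le_of_isCentric hE.1) trivial hg).1
      ((hI _ (cjAut_mem_autGroup D le_top trivial hg)).1 h)
  obtain ⟨n, hn⟩ := k2 _ (cjAut_mem_autInducedBy (mem_top s) hs)
  have e : ∀ m : ℤ, cjAut E u⁻¹ (inv_mem hu) ^ m = cjAut E (u⁻¹ ^ m) (zpow_mem (inv_mem hu) m) := fun m =>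
    (cjAut_zpow _ m).symm
  rw [e, ← cjAut_inv, ← cjAut_mul] at hn
  rw [← zpow_natCast, e] at k1
  have a := k _ hn
  have b := k _ k1
  have c : (u⁻¹ ^ n)⁻¹ * s = (u⁻¹ ^ ((3 : ℕ) : ℤ)) ^ (-(n / 3)) * (u ^ (n % 3) * s) := by
    rw [← mul_assoc, inv_zpow, inv_zpow, inv_inv, inv_zpow', ← zpow_mul, ← zpow_add]
    congr 2
    omega
  rw [c, mul_mem_cancel_left (zpow_mem b _)] at a
  obtain f | f | f : n % 3 = 0 ∨ n % 3 = 1 ∨ n % 3 = 2 := by omega
  all_goals rw [f] at a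
  exacts [.inl (by simpa using a), .inr (.inl (by simpa using a)), .inr (.inr (by rwa [zpow_two, mul_assoc] at a))]

namespace Md
variable {M : Md P}

theorem el_mem {D : ℕ → ℕ} {j : ℕ} (h : D j ≠ 0 → M.el (D j) ∈ X) : M.el (D j) ∈ X := by
  by_cases a : D j = 0
  · rw [a, M.el_zero]; exact one_mem _
  · exact h a

theorem Full.of_inn {t : ℕ} (hA : M.Full A X) (h : inn A t = true) : M.el t ∈ X := (hA.inn_iff (inn_lt h)).1 h

theorem Full.lt {j : ℕ} (hA : M.Full A X) (hj : j < 9) : A j < 19683 := wf_lt hA.wf hj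

/-- part 3: the rules -/
theorem Full.ph_mem (hB : M.Full B X) (h : phLB B U x y z = true) : C9.wf U = true ∧ ∀ j < 9, M.el (U j) ∈ Ph X := by
  simp only [phLB, Bool.and_eq_true, Bool.or_eq_true, allLt_iff, isz_iff, Nat.beq_eq] at h
  refine ⟨h.1, fun j hj => el_mem fun h0 => ?_⟩
  obtain ⟨a, b, c, e⟩ := (h.2 j hj).resolve_left h0
  rw [e, M.mul (cmc_lt (inn_lt a) (inn_lt b)) (cub_lt (inn_lt c)), M.el_cmc (inn_lt a) (inn_lt b), M.el_cub (inn_lt c)]
  exact mul_mem (subset_closure (.inl ⟨_, hB.of_inn a, _, hB.of_inn b, rfl⟩))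
    (subset_closure (.inr ⟨_, hB.of_inn c, rfl⟩))

/-- `sg U ≤ Ph X` by `ph_mem`.  Conversely `X` normalizes `K = sg U` (`full_of_pcB`, `mem_normalizer`, `Full.le`), `[X, X] ≤ K` (`cm_mem`; `cm a a = 1`,
`cm b a = (cm a b)⁻¹`), and the `a ∈ X` with `a ^ 3 ∈ K` form a subgroup (`X / K` is abelian). -/
theorem Full.ph (hB : M.Full B X) (h : frB B U x y z = true) : M.Full U (Ph X) := by
  simp only [frB, Bool.and_eq_true, allE_iff, allP_iff] at h
  obtain ⟨h1, h2, h3, h4⟩ := h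
  have hK := M.full_of_pcB h2
  have n : X ≤ normalizer (M.sg U : Set P) := hB.le fun j hj j0 => hK.mem_normalizer fun i hi i0 =>
    M.el_cmc (hK.lt hi) (hB.lt hj) ▸ hK.of_inn ((h3 j hj j0).2 i hi i0)
  have l : ∀ j < 9, B j ≠ 0 → ∀ i < j, B i ≠ 0 → cm (M.el (B i)) (M.el (B j)) ∈ M.sg U := fun j hj j0 i hi i0 =>
    M.el_cmc (hB.lt (hi.trans hj)) (hB.lt hj) ▸ hK.of_inn (h4 j hj j0 i hi i0)
  have c := hB.cm_mem hB n n fun i hi i0 j hj j0 => by
    rcases lt_trichotomy i j with a | rfl | a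
    · exact l j hj j0 i a i0
    · simp [cm, one_mem]
    · rw [← Inv.cm_inv]
      exact inv_mem (l i hi i0 j a j0)
  let W : Subgroup P :=
    { carrier := {a | a ∈ X ∧ a ^ 3 ∈ M.sg U}
      one_mem' := ⟨one_mem _, by simp [one_mem]⟩
      inv_mem' := fun ha => ⟨inv_mem ha.1, by rw [inv_pow]; exact inv_mem ha.2⟩
      mul_mem' := fun {a b} ha hb => ⟨mul_mem ha.1 hb.1, by
        convert mul_mem (mul_mem (mul_mem ha.2 (c _ (pow_mem ha.1 2) _ (inv_mem hb.1)))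
          (c _ (mul_mem ha.1 (inv_mem hb.1)) _ (inv_mem hb.1))) hb.2 using 1
        simp [cm, pow_succ, mul_assoc]⟩ }
  have w : X ≤ W := hB.le fun j hj j0 => ⟨hB.mem j hj, M.el_cub (hB.lt hj) ▸ hK.of_inn (h3 j hj j0).1⟩
  refine (le_antisymm ((closure_le _).2 ?_) ((closure_le _).2 ?_) : M.sg U = Ph X) ▸ hK
  · rintro _ ⟨j, hj, rfl⟩
    exact (hB.ph_mem h1).2 j hj
  · rintro _ (⟨a, ha, b, hb, rfl⟩ | ⟨a, ha, rfl⟩)
    · exact c a ha b hb
    · exact (w ha).2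

theorem Iv.fr (hB : M.Iv H B) (h : frB B U x y z = true) : M.Iv H U := by
  obtain ⟨X, hX, h1, h2⟩ := hB
  exact ⟨Ph X, (Ph_le X).trans hX, h1.ph h, autInv_Ph hX h2⟩

/-- with `X`, `Y` the subgroups of `B`, `C`: the subgroup `{y ∈ E | ∀ b ∈ X, cm y b ∈ Y}` is invariant; `cm_mem`, `Full.of_allT`, `Full.inn_iff` -/
theorem Iv.ce (hA : M.Full A E) (hH : Inn E ≤ H) (hB : M.Iv H B) (hC : M.Iv H C) (h : ceB A B C U = true) : M.Iv H U := by
  obtain ⟨X, hX, b1, b2⟩ := hB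
  obtain ⟨Y, hY, c1, c2⟩ := hC
  simp only [ceB, Bool.and_eq_true, allE_iff] at h
  obtain ⟨h1, h2, h3⟩ := h
  have n := le_normalizer_of_autInv hY c2 hH
  let W : Subgroup P :=
    { carrier := {a | a ∈ E ∧ ∀ b ∈ X, cm a b ∈ Y}
      one_mem' := ⟨one_mem _, fun b _ => by simp [cm, one_mem]⟩
      inv_mem' := fun {a} ha => ⟨inv_mem ha.1, fun b hb => by
        convert (mem_normalizer_iff.1 (n ha.1) _).1 (inv_mem (ha.2 b hb)) using 1
        simp [cm, mul_assoc]⟩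
      mul_mem' := fun {a a'} ha ha' => ⟨mul_mem ha.1 ha'.1, fun b hb => by
        convert mul_mem ((mem_normalizer_iff.1 (n (inv_mem ha'.1)) _).1 (ha.2 b hb)) (ha'.2 b hb) using 1
        simp [cm, mul_assoc]⟩ }
  refine ⟨W, fun _ ha => ha.1, hA.of_allT (fun _ ha => ha.1) h1 (fun j hj => el_mem fun j0 => ?_) h3
    fun t ht _ hp hW => ?_, fun α hα a ha hW => ⟨autFun_mem α ha, fun b hb => ?_⟩⟩
  · have a := hA.of_inn (h2 j hj j0).1
    refine ⟨a, fun b hb => ?_⟩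
    rw [← Inv.cm_inv]
    refine inv_mem (b1.cm_mem_left (hX.trans n) (n a) (fun i hi i0 => ?_) b hb)
    rw [← Inv.cm_inv]
    exact inv_mem (M.el_cmc (wf_lt h1 hj) (b1.lt hi) ▸ c1.of_inn ((h2 j hj j0).2 i hi i0))
  · obtain ⟨j, hj, -, e⟩ := anyE_iff.1 hp
    rw [(c1.inn_iff (cmc_lt ht (b1.lt hj))).2 (M.el_cmc ht (b1.lt hj) ▸ hW.2 _ (b1.mem j hj))] at e
    simp at e
  · have k := autFun_mem α⁻¹ (hX hb)
    rw [← autFun_autFun_inv α (hX hb), ← Inv.aut_cm α ha k]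
    exact c2 α hα _ (Inv.cm_mem ha k) (hW.2 _ (b2 _ (inv_mem hα) b (hX hb) hb))

/-- `closure {y ∈ E | y ^ 3 = 1} = sg U` (`el (U j) = (el (x j))⁻¹ * (el (x j) * el (U j))`; `forall_of_allT`) -/
theorem Iv.om (hA : M.Full A E) (h : omB A U x = true) : M.Iv H U := by
  simp only [omB, Bool.and_eq_true, allLt_iff, isz_iff] at h
  obtain ⟨h1, h2, h3⟩ := h
  have hK := M.full_of_pcB h1
  have l : closure {a | a ∈ E ∧ a ^ 3 = 1} ≤ E := (closure_le _).2 fun _ ha => ha.1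
  refine ⟨_, l, (le_antisymm ((closure_le _).2 ?_) ((closure_le _).2 fun a ha => ?_) : M.sg U = _) ▸ hK,
    Inv.inv_closure l fun α _ a ha => ⟨autFun_mem α ha.1, ?_⟩⟩
  · rintro _ ⟨j, hj, rfl⟩
    obtain ⟨a, b, c, d⟩ := h2 j hj
    rw [← inv_mul_cancel_left (M.el (x j)) (M.el (U j))]
    refine mul_mem (inv_mem (subset_closure ⟨hA.of_inn b, ?_⟩))
      (subset_closure ⟨mul_mem (hA.of_inn b) (hA.of_inn a), ?_⟩)
    · rw [← M.el_cub (inn_lt b), c, M.el_zero]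
    · rw [← M.mul (inn_lt b) (inn_lt a), ← M.el_cub (mu_lt (inn_lt b) (inn_lt a)), d, M.el_zero]
  · obtain ⟨t, ht, rfl⟩ := M.surj a
    rcases hA.forall_of_allT h3 ht ha.1 with rfl | e
    · rw [M.el_zero]; exact one_mem _
    · rw [isz_iff.2 ((M.el_eq_one (cub_lt ht)).1 ((M.el_cub ht).trans ha.2))] at e
      exact hK.of_inn (by simpa using e)
  · rw [← (isHomOn_autFun α).map_pow ha.1, ha.2, (isHomOn_autFun α).map_one]

/-- the subgroup generated by the quadratic elements -/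
theorem Iv.qd (hA : M.Full A E) (hH : Inn E ≤ H) (hB : M.Iv H B) (hC : M.Iv H C) (h : qdB A B C U = true) : M.Iv H U := by
  obtain ⟨X, hX, b1, b2⟩ := hB
  obtain ⟨Y, hY, c1, c2⟩ := hC
  simp only [qdB, Bool.and_eq_true, allE_iff, allP_iff] at h
  obtain ⟨h1, h2, h3, h4, h5⟩ := h
  have hK := M.full_of_pcB h1
  have n := le_normalizer_of_autInv hY c2 hH
  have n' := le_normalizer_of_autInv hX b2 hH
  have ab : ∀ a ∈ X, ∀ b ∈ X, a * b = b * a := fun a ha b hb => b1.comm (fun i hi i0 => (b1.comm (fun j hj j0 => by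
    rcases lt_trichotomy i j with e | rfl | e
    · exact ((M.cmB_iff (b1.lt hi) (b1.lt hj)).1 (h2 j hj j0 i e i0)).symm
    · rfl
    · exact (M.cmB_iff (b1.lt hj) (b1.lt hi)).1 (h2 i hi i0 j e j0)) b hb).symm) a ha
  have l : closure {a | a ∈ E ∧ ∀ b ∈ X, cm (cm b a) a ∈ Y} ≤ E := (closure_le _).2 fun _ ha => ha.1
  refine ⟨_, l, (le_antisymm ((closure_le _).2 ?_) ((closure_le _).2 fun a ha => ?_) : M.sg U = _) ▸ hK,
    Inv.inv_closure l fun α hα a ha => ⟨autFun_mem α ha.1, fun b hb => ?_⟩⟩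
  · rintro _ ⟨j, hj, rfl⟩
    refine el_mem fun j0 => ?_
    have a := hA.of_inn (h4 j hj j0).1
    refine subset_closure ⟨a, fun b hb => ((b1.le (X := cgp X (cgp X Y (M.el (U j)) (hX.trans n)) (M.el (U j))
      fun c hc => mem_normalizer_iff.2 fun d => ?_)
      (fun i hi i0 => ⟨b1.mem i hi, cm_mem_of_norm (n' a) (b1.mem i hi), ?_⟩) hb).2).2⟩
    · refine ⟨fun hd => by rwa [ab c hc d hd.1, mul_inv_cancel_right], fun hd => ?_⟩
      have := ab c hc _ hd.1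
      rw [mul_assoc, mul_assoc, mul_assoc, inv_mul_cancel, mul_one, mul_right_inj, ← mul_assoc] at this
      rwa [this] at hd
    · rw [← M.el_cmc (b1.lt hi) (hK.lt hj), ← M.el_cmc (cmc_lt (b1.lt hi) (hK.lt hj)) (hK.lt hj)]
      exact c1.of_inn ((h4 j hj j0).2 i hi i0)
  · have hXK : X ≤ M.sg U := b1.le fun j hj j0 => hK.of_inn (h3 j hj j0)
    obtain ⟨t, ht, k, m, e⟩ := hA.allT_dec hX b1.wf b1.mem le_rfl 0 (by norm_num) (M.el_zero ▸ one_mem E) h5 a ha.1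
      (M.G_ten ▸ mem_top _)
    rw [M.el_zero, one_mul] at e
    refine (mul_mem_cancel_left (inv_mem ?_)).1 (hXK e.1)
    rcases k with rfl | k
    · rw [M.el_zero]; exact one_mem _
    rcases Bool.or_eq_true_iff.1 k with k | k
    · exact hK.of_inn k
    obtain ⟨j, hj, -, k⟩ := anyE_iff.1 k
    have q : ∀ b ∈ X, cm b a = cm b (M.el t) := fun b hb => by
      have := ab _ e.1 _ ((mem_normalizer_iff.1 (inv_mem (n' m)) _).1 hb)
      calc cm b a = b⁻¹ * (((M.el t)⁻¹ * a)⁻¹ * (((M.el t)⁻¹ * b * (M.el t)⁻¹⁻¹) * ((M.el t)⁻¹ * a))) := by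
            simp only [cm]; group
        _ = _ := by rw [← this]; simp only [cm]; group
    have := ha.2 _ (b1.mem j hj)
    rw [q _ (b1.mem j hj), q _ (cm_mem_of_norm (n' m) (b1.mem j hj)), ← M.el_cmc (b1.lt hj) ht,
      ← M.el_cmc (cmc_lt (b1.lt hj) ht) ht, ← c1.inn_iff (cmc_lt (cmc_lt (b1.lt hj) ht) ht)] at this
    simp [this] at k
  · have k := autFun_mem α⁻¹ (hX hb)
    rw [← autFun_autFun_inv α (hX hb), ← Inv.aut_cm α k ha.1, ← Inv.aut_cm α (Inv.cm_mem k ha.1) ha.1]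
    exact c2 α hα _ (Inv.cm_mem (Inv.cm_mem k ha.1) ha.1) (ha.2 _ (b2 _ (inv_mem hα) b (hX hb) hb))

theorem iv_top (hA : M.Full A E) : M.Iv H A := ⟨E, le_rfl, hA, autInv_of_le H le_rfl⟩

theorem iv_bot (M : Md P) : M.Iv H (en 0) := ⟨⊥, bot_le, M.full_bot, autInv_bot H⟩

theorem iv_getD {st : List ℕ} (hst : ∀ D ∈ st, M.Iv H (en D)) (b : ℕ) : M.Iv H (en (st.getD b 0)) := by
  by_cases a : b < st.length
  · rw [List.getD_eq_getElem _ _ a]
    exact hst _ (List.getElem_mem a)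
  · rw [List.getD_eq_default _ _ (not_lt.1 a)]
    exact M.iv_bot

/-- induction on the program -/
theorem iv_run (hA : M.Full A E) (hH : Inn E ≤ H) {prog : List Nd} {st : List ℕ} (hst : ∀ D ∈ st, M.Iv H (en D))
    (h : runP A prog st = true) : ∀ D ∈ stk prog st, M.Iv H (en D) := by
  induction prog generalizing st with
  | nil => simpa [stk] using hst
  | cons nd l ih =>
    obtain ⟨a, b⟩ := Bool.and_eq_true_iff.1 (show (nd.ok A st && runP A l (nd.u :: st)) = true from h)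
    rw [show stk (nd :: l) st = stk l (nd.u :: st) by simp [stk]]
    refine ih (List.forall_mem_cons.2 ⟨?_, hst⟩) b
    cases nd with
    | fr => exact (iv_getD hst _).fr a
    | ce => exact Iv.ce hA hH (iv_getD hst _) (iv_getD hst _) a
    | om => exact Iv.om hA a
    | qd => exact Iv.qd hA hH (iv_getD hst _) (iv_getD hst _) a

theorem Iv.autInv (h : M.Iv H U) (hX : M.Full U X) : AutInv H X :=
  let ⟨_, _, h1, h2⟩ := h; h1.unique hX ▸ h2

theorem Full.ch {w : ℕ} (hA : M.Full A E) (hF : phLB A F x y z = true) (hB : M.Iv (⊤ : Subgroup (MulAut E)) B)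
    (hC : M.Iv (⊤ : Subgroup (MulAut E)) C) (h : chB A F B C w = true) {D : FusionSystem (⊤ : Subgroup P)}
    (hD : D.IsSaturated 3) : ¬ D.IsEssential 3 E := by
  have := M.finite
  obtain ⟨f1, f2⟩ := hA.ph_mem hF
  obtain ⟨Y, hY, b1, b2⟩ := hB
  obtain ⟨X, hX, c1, c2⟩ := hC
  simp only [chB, Bool.and_eq_true, allE_iff, Nat.blt_eq, Bool.not_eq_true', frc_eq, Bool.or_eq_true] at h
  obtain ⟨hw, h1, h2, h3, h4⟩ := h
  have c0 : Ch E (Ph E) := autInv_Ph le_rfl (autInv_of_le _ le_rfl)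
  have lX := sup_le hX (Ph_le E)
  have lY := sup_le hY lX
  have cX : Ch E (X ⊔ Ph E) := SR3.autInv_sup hX (Ph_le E) c2 c0
  have cY : Ch E (Y ⊔ (X ⊔ Ph E)) := SR3.autInv_sup hY lX b2 cX
  have k : ∀ i < 9, A i ≠ 0 → cm (M.el (A i)) (M.el w) ∈ Y ⊔ (X ⊔ Ph E) := fun i hi i0 =>
    M.el_cmc (hA.lt hi) hw ▸ (h2 i hi i0).elim (fun e => mem_sup_left (b1.of_inn e))
      fun e => mem_sup_right (mem_sup_right (inn_sound f1 f2 e))
  have n := hA.mem_normalizer fun i hi i0 => lY (k i hi i0)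
  have n0 := le_normalizer_of_autInv (Ph_le E) c0 le_top
  have nX := le_normalizer_of_autInv lX cX le_top
  have k3 : X ⊔ Ph E ≤ cgp E (Ph E) (M.el w) n0 := sup_le
    (c1.le fun i hi i0 => ⟨hX (c1.mem i hi), M.el_cmc (c1.lt hi) hw ▸ inn_sound f1 f2 (h4 i hi i0)⟩)
    fun a ha => ⟨Ph_le E ha, cm_mem_of_norm (mem_normalizer_of_autInv (Ph_le E) c0 n trivial) ha⟩
  have k2 : Y ⊔ (X ⊔ Ph E) ≤ cgp E (X ⊔ Ph E) (M.el w) nX := sup_le
    (b1.le fun i hi i0 => ⟨hY (b1.mem i hi), M.el_cmc (b1.lt hi) hw ▸ (h3 i hi i0).elim (fun e => mem_sup_left (c1.of_inn e))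
      fun e => mem_sup_right (inn_sound f1 f2 e)⟩)
    fun a ha => ⟨lX ha, mem_sup_right (k3 ha).2⟩
  have k1 : E ≤ cgp E _ (M.el w) (le_normalizer_of_autInv lY cY le_top) := hA.le fun i hi i0 => ⟨hA.mem i hi, k i hi i0⟩
  exact not_essential_of_chain M.pg hD le_sup_right le_sup_right cX cY n (fun e => by simp [(hA.inn_iff hw).2 e] at h1)
    (fun a ha => (k1 ha).2) (fun a ha => (k2 ha).2) fun a ha => (k3 ha).2

theorem Full.tv {Z : ℕ → ℕ} {u s : ℕ} (hA : M.Full A E) (hF : frB A F x y z = true) (h : tvB A F Z u s = true)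
    {D : FusionSystem (⊤ : Subgroup P)} (hD : D.IsSaturated 3) : ¬ D.IsEssential 3 E := fun hE => by
  have := M.finite
  have f := hA.ph hF
  simp only [tvB, Bool.and_eq_true, allE_iff, Nat.blt_eq, Nat.beq_eq, Bool.not_eq_true', ← Bool.not_eq_true] at h
  obtain ⟨h1, h2, h3, hu, hs, h4, h5, h6, h7, h8, h9⟩ := h
  have hZ := M.full_of_pcB h1
  have c0 : Ch E (Ph E) := autInv_Ph le_rfl (autInv_of_le _ le_rfl)
  have k : M.sg Z ≤ cgp E (Ph E) (M.el u) (le_normalizer_of_autInv (Ph_le E) c0 le_top) := hZ.le fun i hi i0 =>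
    ⟨hA.of_inn (h2 i hi i0).1, M.el_cmc (hZ.lt hi) hu ▸ f.of_inn (h2 i hi i0).2⟩
  have hZE : M.sg Z ≤ E := fun a ha => (k ha).1
  have c1 : Nat.card E = 3 ^ nl A := hA.card
  have c2 : Nat.card (M.sg Z) = 3 ^ nl Z := hZ.card
  have r1 : (M.sg Z).relIndex E = 3 := by
    have : Nat.card (M.sg Z) * (M.sg Z).relIndex E = Nat.card E := by
      rw [relIndex, ← Nat.card_congr (subgroupOfEquivOfLe hZE).toEquiv, card_mul_index]
    rw [c1, c2, h6, pow_succ] at this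
    exact Nat.eq_of_mul_eq_mul_left (by positivity) this
  have := mem_of_tv M.pg hD hE (f.le fun i hi i0 => hZ.of_inn (h3 i hi i0)) hZE r1
    (hA.mem_normalizer fun i hi i0 => M.el_cmc (hA.lt hi) hu ▸ hA.of_inn (h5 i hi i0).1) (by rwa [← hA.inn_iff hu])
    (fun a ha => (k ha).2) (hA.mem_normalizer fun i hi i0 => M.el_cmc (hA.lt hi) hs ▸ hA.of_inn (h5 i hi i0).2)
  rw [← M.mul hu hs, ← M.mul hu (mu_lt hu hs), ← hA.inn_iff hs, ← hA.inn_iff (mu_lt hu hs),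
    ← hA.inn_iff (mu_lt hu (mu_lt hu hs))] at this
  tauto

theorem Full.kill {a : ℕ} {r : Rc} (hA : M.Full (en a) E) (hF : phLB (en a) (en r.F) x y z = true) (h : killB a r = true)
    {D : FusionSystem (⊤ : Subgroup P)} (hD : D.IsSaturated 3) : ¬ D.IsEssential 3 E := by
  obtain ⟨F, x', y', z', K, C, ⟨l, i, j, w⟩ | ⟨Z, u, s⟩⟩ := r
  · obtain ⟨k1, k2⟩ := Bool.and_eq_true_iff.1 (show (runP (en a) l [a] &&
      chB (en a) (en F) (en ((stk l [a]).getD i 0)) (en ((stk l [a]).getD j 0)) w) = true from h)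
    have := iv_run (H := ⊤) hA le_top (by simpa using iv_top hA) k1
    exact hA.ch hF (iv_getD this i) (iv_getD this j) k2 hD
  · obtain ⟨k1, k2⟩ := Bool.and_eq_true_iff.1 (show (frB (en a) (en F) (en x') (en y') (en z') &&
      tvB (en a) (en F) (en Z) u s) = true from h)
    exact hA.tv k1 k2 hD

end Md

end CL.C9
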