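/- S5227: the enumeration of the centric subgroups. -/
import Cfsg.Agent.FUS.C9.Inv
set_option autoImplicit false

namespace CL.C9
open Cfsg CL.Fus CL.K Subgroup
open CL.T3 (cm Ch)

variable {P : Type*} [Group P] {A K F D x y z cls : ℕ → ℕ} {E H X : Subgroup P} {N : ℕ}

/-- part 1: a maximal subgroup of a finite 3-group is normal of index 3. -/
theorem exists_max [Finite H] (hH : IsPGroup 3 H) (h : E < H) : ∃ X, E ≤ X ∧ X < H ∧ Ph H ≤ X ∧
    ∀ a ∈ H, a ∉ X → ∀ y ∈ H, y ∈ X ∨ y * a ∈ X ∨ y * a * a ∈ X := by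
  have : Fact (Nat.Prime 3) := ⟨Nat.prime_three⟩
  obtain ⟨X, hX, l⟩ := (eq_top_or_exists_le_coatom (E.subgroupOf H)).resolve_left fun e => h.not_ge (subgroupOf_eq_top.1 e)
  have := CL.PG.coatom_normal hH hX
  refine ⟨X.map H.subtype, fun e he => ⟨⟨e, h.le he⟩, l he, rfl⟩, lt_of_le_of_ne (map_subtype_le X) fun e => hX.1
    (eq_top_iff.2 fun g _ => (mem_map_iff_mem H.subtype_injective).1 (e.ge g.2)), (closure_le _).2 ?_, fun a ha n y hy => ?_⟩
  · rintro _ (⟨x, hx, y, hy, rfl⟩ | ⟨x, hx, rfl⟩)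
    · exact ⟨_, CL.PG.commutator_le_coatom hH hX (commutator_mem_commutator (mem_top (⟨x, hx⟩ : H)⁻¹) (mem_top (⟨y, hy⟩ : H)⁻¹)),
        by simp [cm, commutatorElement_def]⟩
    · exact ⟨_, CL.PG.pow_mem_coatom hH hX ⟨x, hx⟩, rfl⟩
  obtain ⟨n, e⟩ := mem_powers_of_prime_card (G := H ⧸ X) (CL.PG.coatom_index hH hX) (g := (⟨a, ha⟩ : H))
    (g' := ((⟨y, hy⟩ : H)⁻¹ : H)) fun e => n ⟨_, (QuotientGroup.eq_one_iff _).1 e, rfl⟩
  have k : y * a ^ (n % 3) ∈ X.map H.subtype := ⟨⟨y, hy⟩ * ⟨a, ha⟩ ^ (n % 3), (QuotientGroup.eq_one_iff _).1 (by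
    rw [QuotientGroup.mk_mul, QuotientGroup.mk_pow, ← CL.PG.coatom_index hH hX, index, pow_mod_natCard]
    exact (congrArg _ e).trans (mul_inv_cancel _)), rfl⟩
  have : n % 3 = 0 ∨ n % 3 = 1 ∨ n % 3 = 2 := by omega
  refine this.imp (fun e => ?_) (Or.imp (fun e => ?_) fun e => ?_) <;> simpa [e, pow_two, mul_assoc] using k

namespace Md
variable {M : Md P}

theorem _root_.CL.C9.upd_apply (D : ℕ → ℕ) (j v l : ℕ) : upd D j v l = if l = j then v else D l := by
  by_cases e : l = j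
  · simp [upd, e]
  · rw [upd, Bool.eq_false_iff.2 fun f => e (Nat.eq_of_beq_eq_true f), if_neg e]; rfl

theorem Full.mem_of_cmB (hA : M.Full A H) (hE : E ≤ H) (hc : centralizer (E : Set P) ≤ E) {c : ℕ} (h : c < 19683)
    (h' : allE A (cmB c) = true) : M.el c ∈ E := hc fun e he =>
  hA.comm (fun i hi n => ((M.cmB_iff h (wf_lt hA.wf hi)).1 (allE_iff.1 h' i hi n)).symm) e (hE he)

/-- part 2.  `c` centralizes `H ≥ E` (`Full.comm`), so `c ∈ E ≤ X`; `A j * c ∈ Ph H ≤ X` (`inn_sound`). -/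
theorem Full.mem_of_kB (hA : M.Full A H) (hF : phLB A F x y z = true) (hK : kB A F K = true) (hE : E ≤ H)
    (hc : centralizer (E : Set P) ≤ E) (hX : E ≤ X) (hX' : Ph H ≤ X) {j : ℕ} (hj : j < 9) (h : K j ≠ 0) : M.el (A j) ∈ X := by
  have := allLt_iff.1 hK j hj
  simp only [isz_false.2 h, frc_eq, Bool.false_or, Bool.and_eq_true, Bool.or_eq_true, Nat.blt_eq, isz_iff] at this
  obtain ⟨a, b, c⟩ := this
  have := hX' (inn_sound (hA.ph_mem hF).1 (hA.ph_mem hF).2 c)
  rw [M.mul (wf_lt hA.wf hj) a] at this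
  exact (mul_mem_cancel_right (b.elim (fun e => by rw [e, M.el_zero]; exact one_mem _)
    fun e => hX (hA.mem_of_cmB hE hc a e))).1 this

/-- part 3.  Induction on `j ≤ 9` with the invariant: `D l < 19683`, `el (D l) ∈ X` for `j ≤ l < 9`, for `l ≤ i`, and if `A l = 0` or `K l ≠ 0`;
`D l = A l` for `i < l < j`. -/
theorem Full.of_hyp (hA : M.Full A H) {i : ℕ} (hi : i < 9) (hX : ∀ y ∈ H, y ∈ X ∨ y * M.el (A i) ∈ X ∨ y * M.el (A i) * M.el (A i) ∈ X)
    (h1 : ∀ j < i, M.el (A j) ∈ X) (h2 : ∀ j < 9, K j ≠ 0 → M.el (A j) ∈ X) {p : (ℕ → ℕ) → ℕ → Bool}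
    (h : hyp A K i p 9 (upd A i 0) 1 = true) : ∃ D c, p D c = true ∧ ∀ j < 9, M.el (D j) ∈ X := by
  suffices k : ∀ j ≤ 9, ∀ D c, hyp A K i p j D c = true →
      (∀ l < 9, M.el (D l) ∈ X ∨ (l < j ∧ i < l ∧ A l ≠ 0 ∧ K l = 0 ∧ D l = A l)) → ∃ D c, p D c = true ∧ ∀ j < 9, M.el (D j) ∈ X by
    refine k 9 le_rfl _ _ h fun l hl => ?_
    rcases lt_trichotomy l i with e | rfl | e
    · exact .inl (by simpa [upd_apply, e.ne] using h1 l e)
    · exact .inl (by simp [upd_apply, M.el_zero])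
    · by_cases a : A l = 0
      · exact .inl (by simp [upd_apply, e.ne', a, M.el_zero])
      by_cases b : K l = 0
      · exact .inr ⟨hl, e, a, b, by simp [upd_apply, e.ne']⟩
      · exact .inl (by simpa [upd_apply, e.ne'] using h2 l hl b)
  intro j hj
  induction j with
  | zero => exact fun D c e f => ⟨D, c, e, fun l hl => (f l hl).resolve_right fun e => by omega⟩
  | succ j ih =>
    intro D c e f
    replace e : (bif Nat.ble j i || (isz (A j) || !isz (K j)) then hyp A K i p j D c else hyp A K i p j D (3 * c) &&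
      (hyp A K i p j (upd D j (mu (A j) (A i))) (3 * c + 1) &&
        hyp A K i p j (upd D j (mu (mu (A j) (A i)) (A i))) (3 * c + 2))) = true := e
    have u : ∀ b c, hyp A K i p j (upd D j b) c = true → M.el b ∈ X → ∃ D c, p D c = true ∧ ∀ j < 9, M.el (D j) ∈ X :=
      fun b c e m => ih (by omega) _ c e fun l hl => by
        by_cases a : l = j
        · exact .inl (by simpa [upd_apply, a] using m)
        · rw [upd_apply, if_neg a]
          exact (f l hl).imp_right fun e => ⟨by omega, e.2⟩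
    have v : ∀ c, hyp A K i p j D c = true → M.el (D j) ∈ X → ∃ D c, p D c = true ∧ ∀ j < 9, M.el (D j) ∈ X :=
      fun c e m => u (D j) c (by rwa [show upd D j (D j) = D from funext fun l => by by_cases a : l = j <;> simp [upd_apply, a]]) m
    rcases f j hj with m | ⟨-, a, b, c, d⟩
    · cases h : (Nat.ble j i || (isz (A j) || !isz (K j))) <;> rw [h] at e
      exacts [v _ (Bool.and_eq_true_iff.1 e).1 m, v _ e m]
    rw [show Nat.ble j i = false from Bool.eq_false_iff.2 fun e => by simp at e; omega, isz_false.2 b, isz_iff.2 c] at e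
    simp only [Bool.not_true, Bool.or_self, cond_false, Bool.and_eq_true] at e
    have l1 := wf_lt hA.wf hj
    have l2 := wf_lt hA.wf hi
    rcases hX _ (hA.mem j hj) with m | m | m
    exacts [v _ e.1 (d ▸ m), u _ _ e.2.1 (by rwa [M.mul l1 l2]), u _ _ e.2.2 (by rwa [M.mul (mu_lt l1 l2) l2, M.mul l1 l2])]

/-- part 4.  `lev`: if `A j = 0` use `hA.lev`.  If `j = i` and `y ∈ X ⊓ G (i + 1) \ G i`: `y a` or `y a a` (`a = el (A i)`, `tri_right`) lies in `H ⊓ G i ≤ X`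
(`inn_iff`, `inn_sound'`), so `a ∈ X` or `a a ∈ X`, and `a ^ 3 ∈ H ⊓ G i ≤ X` (`cube_mem`): `a ∈ X`. -/
theorem Full.of_leaf (hA : M.Full A H) (hX : X ≤ H) {i : ℕ} (hi : i < 9) (h0 : M.el (A i) ∉ X) (h1 : ∀ j < i, M.el (A j) ∈ X)
    (hD : ∀ j < 9, M.el (D j) ∈ X)
    (h : allLt (fun j => wfj (D j) j && (!isz (D j) || (Nat.beq j i || isz (A j)))) 9 = true) : M.Full D X := by
  replace h := allLt_iff.1 h
  simp only [Bool.and_eq_true, Bool.or_eq_true, Bool.not_eq_true', isz_false, isz_iff, Nat.beq_eq] at h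
  refine ⟨allLt_iff.2 fun j hj => (h j hj).1, hD, fun j hj e y hy hy' => ?_⟩
  rcases (h j hj).2.resolve_left (not_not.2 e) with rfl | e
  swap
  · exact hA.lev j hj e y (hX hy) hy'
  have k : ∀ z ∈ H, z ∈ M.G j → z ∈ X := fun z hz hz' => by
    obtain ⟨x, hx, rfl⟩ := M.surj z
    exact inn_sound' hA.wf hj.le h1 ((M.mem_G hj.le hx).1 hz') ((hA.inn_iff hx).2 hz)
  have a := hA.mem j hj
  by_contra n
  rcases M.tri_right hj hy' n (M.wf_mem hA.wf hj) with e | e | e
  exacts [h0 (k _ a e), h0 ((mul_mem_cancel_right hy).1 (k _ (mul_mem a (hX hy)) e)),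
    h0 ((mul_mem_cancel_right hy).1 ((mul_mem_cancel_right hy).1 (k _ (mul_mem (mul_mem a (hX hy)) (hX hy)) e)))]

/-- part 5.  `k = 0`: `el h` centralizes `X ≥ E`, so lies in `E ≤ X`, against `inn_iff`.  Else `M' = M.conj (el h)` (`el_cjc`, `inn_sound`, `Sim.G_eq`). -/
theorem Full.of_leaf2 (hD : M.Full D X) (hE : E ≤ X) (hc : centralizer (E : Set P) ≤ E)
    (hw : ∀ k < N, C9.wf (en (cls k)) = true) {h k : ℕ} (hl : leaf2 cls N D h k = true) :
    ∃ M' : Md P, M.Sim M' ∧ ∃ k < N, M'.Full (en (cls k)) X := by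
  obtain ⟨a, b⟩ := Bool.and_eq_true_iff.1 hl
  replace a : h < 19683 := Nat.blt_eq ▸ a
  rcases k with _ | k
  · obtain ⟨b, c⟩ := Bool.and_eq_true_iff.1 b
    simp [(hD.inn_iff a).2 (hE (hD.mem_of_cmB hE hc a b))] at c
  obtain ⟨b, c⟩ := Bool.and_eq_true_iff.1 b
  replace b : k < N := Nat.le_of_ble_eq_true b
  replace c : ∀ j < 9, (bif isz (en (cls k) j) then isz (D j) else inn D (cjc h (en (cls k) j))) = true := allLt_iff.1 c
  refine ⟨_, M.sim_conj (M.el h), k, b, hw k b, fun j hj => ?_, fun j hj e => ?_⟩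
  · by_cases e : en (cls k) j = 0
    · rw [e, el_zero]; exact one_mem _
    · have := c j hj
      rw [isz_false.2 e] at this
      exact (congrArg (· ∈ X) (M.el_cjc a (wf_lt (hw k b) hj))).mp (inn_sound hD.wf hD.mem this)
  · have := c j hj
    rw [isz_iff.2 e] at this
    rw [(M.sim_conj _).G_eq]
    exact hD.lev j hj (isz_iff.1 this)

/-- part 6: `exists_max`; `i` is the least level with `el (A i) ∉ X` (`Full.le`, `Nat.find`). -/
theorem Full.step (hA : M.Full A H) (hF : phLB A F x y z = true) (hK : kB A F K = true) {C : ℕ} (h : stepB cls N A K C = true)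
    (hw : ∀ k < N, C9.wf (en (cls k)) = true) (hE : E < H) (hc : centralizer (E : Set P) ≤ E) :
    ∃ X, E ≤ X ∧ X < H ∧ ∃ M' : Md P, M.Sim M' ∧ ∃ k < N, M'.Full (en (cls k)) X := by
  classical
  have := M.finite
  obtain ⟨X, a, b, c, d⟩ := exists_max (M.pg.to_le le_top) hE
  have e : ∃ i, i < 9 ∧ M.el (A i) ∉ X := by
    by_contra! e
    exact b.not_ge (hA.le fun j hj _ => e j hj)
  obtain ⟨hi, n⟩ := Nat.find_spec e
  have h1 : ∀ j < Nat.find e, M.el (A j) ∈ X := fun j hj => by_contra fun n => Nat.find_min e hj ⟨hj.trans hi, n⟩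
  generalize Nat.find e = i at hi n h1
  have h2 : ∀ j < 9, K j ≠ 0 → M.el (A j) ∈ X := fun j => hA.mem_of_kB hF hK hE.le hc a c
  have := allLt_iff.1 h i hi
  simp only [Bool.or_eq_true, Bool.not_eq_true', isz_false, isz_iff] at this
  obtain ⟨D, c, l, m⟩ := hA.of_hyp hi (d _ (hA.mem i hi) n) h1 h2 ((this.resolve_left fun e => n (by
    rw [e, el_zero]; exact one_mem _)).resolve_left fun e => n (h2 i hi e))
  obtain ⟨l1, l2⟩ := Bool.and_eq_true_iff.1 l
  exact ⟨X, a, b, (hA.of_leaf b.le hi n h1 m l1).of_leaf2 a hc hw l2⟩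

/-- part 7: induction on `Nat.card H` for: `E ≤ H`, `M.Full (en (cls k)) H`, `k < N` give `M'`, `k' < N` with `M'.Full (en (cls k')) E`;
then `Full.kill`.  (`hE.1` is `IsCentric`: `centralizerIn ⊤ E ≤ E`.) -/
theorem classify (M : Md P) {spl : List ℕ} (h : ∀ k < N, ∃ r, clsB cls N spl k r = true) (h0 : 0 < N)
    (ht : M.Full (en (cls 0)) ⊤) {D : FusionSystem (⊤ : Subgroup P)} (hD : D.IsSaturated 3) (hE : D.IsEssential 3 E) :
    ∃ M' : Md P, M.Sim M' ∧ ∃ k ∈ spl, M'.Full (en (cls k)) E := by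
  have := M.finite
  have hc : centralizer (E : Set P) ≤ E := fun g hg => hE.1.2 E (isConj_refl D hE.1.1) ⟨trivial, hg⟩
  simp only [clsB, frc_eq, Bool.and_eq_true, Bool.or_eq_true, List.any_eq_true, Nat.beq_eq] at h
  have k : ∀ H, E ≤ H → ∀ M' : Md P, M.Sim M' → ∀ k < N, M'.Full (en (cls k)) H →
      ∃ M' : Md P, M.Sim M' ∧ ∃ k < N, M'.Full (en (cls k)) E := fun H => by
    induction H using WellFoundedLT.induction with
    | ind H ih =>
      intro l M' s k hk f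
      rcases l.eq_or_lt with rfl | l
      · exact ⟨M', s, k, hk, f⟩
      obtain ⟨r, -, a, b, c, -⟩ := h k hk
      obtain ⟨X, a, b, M'', s', k', hk', f'⟩ := f.step a b c (fun k hk => (h k hk).choose_spec.1) l hc
      exact ih X b a M'' (s.trans s') k' hk' f'
  obtain ⟨M', s, k, hk, f⟩ := k ⊤ le_top M (Sim.refl M) 0 h0 ht
  obtain ⟨r, -, a, -, -, ⟨_, b, rfl⟩ | b⟩ := h k hk
  exacts [⟨M', s, k, b, f⟩, (f.kill a b hD hE).elim]

end Md

theorem clsL_spec {spl : List ℕ} {l : List Rc} {k n : ℕ} (h : (clsL cls N spl l k && Nat.beq l.length n) = true) :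
    ∀ i, k ≤ i → i < k + n → ∃ r, clsB cls N spl i r = true := by
  obtain ⟨a, b⟩ := Bool.and_eq_true_iff.1 h
  obtain rfl := Nat.beq_eq ▸ b
  clear h b
  induction l generalizing k with
  | nil => intro i a b; simp at b; omega
  | cons r l ih =>
    intro i c d
    obtain ⟨a, b⟩ := Bool.and_eq_true_iff.1 a
    rcases c.eq_or_lt with rfl | c
    exacts [⟨r, a⟩, ih b i c (by simp at d; omega)]

end CL.C9
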