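/- S5227: the group `U` is a model of the coded group. -/
import Cfsg.Agent.FUS.C9.Gs
import Cfsg.Agent.FUS.C1.Defs
set_option autoImplicit false
set_option maxRecDepth 100000
set_option Elab.async false

namespace CL.C9
open Cfsg CL.Fus CL.K Subgroup
open CL.C1F hiding Md

/-- a digit as an element of the field -/
def dz (x i : ℕ) : k3 := (dg x i : ℕ)

/-- the element with code `x` -/
def elU (x : ℕ) : U := tt (dz x 8) (dz x 7) (dz x 6) * jj (dz x 0) (dz x 1) (dz x 2) (dz x 3) (dz x 4) (dz x 5)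

/-- the code with given digits -/
def cd9 (p q r u v w c b a : ℕ) : ℕ :=
  (Nat.add (Nat.mod p (nat_lit 3)) (Nat.mul (nat_lit 3) (Nat.add (Nat.mod q (nat_lit 3)) (Nat.mul (nat_lit 3) (Nat.add (Nat.mod r (nat_lit 3)) (Nat.mul (nat_lit 3) (Nat.add (Nat.mod u (nat_lit 3)) (Nat.mul (nat_lit 3) (Nat.add (Nat.mod v (nat_lit 3)) (Nat.mul (nat_lit 3) (Nat.add (Nat.mod w (nat_lit 3)) (Nat.mul (nat_lit 3) (Nat.add (Nat.mod c (nat_lit 3)) (Nat.mul (nat_lit 3) (Nat.add (Nat.mod b (nat_lit 3)) (Nat.mul (nat_lit 3) (Nat.mod a (nat_lit 3))))))))))))))))))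

/-- a digit -/
def dn (x i : ℕ) : ℕ := Nat.mod (Nat.div x (p3 i)) (nat_lit 3)

/-- the code of a product -/
noncomputable def pr (x y : ℕ) : ℕ :=
  frc (dn x 0) fun p => frc (dn x 1) fun q => frc (dn x 2) fun r => frc (dn x 3) fun u => frc (dn x 4) fun v =>
  frc (dn x 5) fun w => frc (dn y 8) fun a => frc (dn y 7) fun b => frc (dn y 6) fun c =>
  frc (Nat.mul (nat_lit 2) a) fun α => frc (Nat.mul (nat_lit 2) b) fun β => frc (Nat.add (Nat.mul a b) (Nat.mul (nat_lit 2) c)) fun γ =>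
  cd9 (Nat.add (Nat.add (Nat.add (Nat.add (Nat.add (Nat.add p (Nat.mul (Nat.mul (nat_lit 2) α) q)) (Nat.mul (Nat.mul (nat_lit 2) γ) r)) (Nat.mul (Nat.mul α α) u)) (Nat.mul (Nat.mul (Nat.mul (nat_lit 2) α) γ) v)) (Nat.mul (Nat.mul γ γ) w)) (dn y 0))
    (Nat.add (Nat.add (Nat.add (Nat.add (Nat.add q (Nat.mul β r)) (Nat.mul α u)) (Nat.mul (Nat.add (Nat.mul α β) γ) v)) (Nat.mul (Nat.mul β γ) w)) (dn y 1))
    (Nat.add (Nat.add (Nat.add r (Nat.mul α v)) (Nat.mul γ w)) (dn y 2)) (Nat.add (Nat.add (Nat.add u (Nat.mul (Nat.mul (nat_lit 2) β) v)) (Nat.mul (Nat.mul β β) w)) (dn y 3))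
    (Nat.add (Nat.add v (Nat.mul β w)) (dn y 4)) (Nat.add w (dn y 5)) (Nat.add (Nat.add (dn x 6) c) (Nat.mul (dn x 8) b)) (Nat.add (dn x 7) b) (Nat.add (dn x 8) a)

/-- `mu x y = pr x y` -/
noncomputable def prB (x y : ℕ) : Bool := frc x fun x => frc y fun y => Nat.beq (mu x y) (pr x y)

theorem pr_c1 : allLt (fun a => allLt (fun b => prB (Nat.mul 243 a) (Nat.mul 243 b)) 81) 81 = true := by decide +kernel

theorem pr_c2 : allLt (fun q => allLt (fun v => prB v (Nat.mul 243 q)) 243) 27 = true := by decide +kernel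

theorem pr_c3 : allLt (fun q => allLt (fun v => prB v (Nat.mul 243 (Nat.add 27 q))) 243) 27 = true := by decide +kernel

theorem pr_c4 : allLt (fun q => allLt (fun v => prB v (Nat.mul 243 (Nat.add 54 q))) 243) 27 = true := by decide +kernel

theorem elU_cd9 (p q r u v w c b a : ℕ) : elU (cd9 p q r u v w c b a) = tt a b c * jj p q r u v w := by
  have e : cd9 p q r u v w c b a = p % 3 + 3 * (q % 3 + 3 * (r % 3 + 3 * (u % 3 + 3 * (v % 3 + 3 * (w % 3 + 3 * (c % 3 + 3 * (b % 3 +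
    3 * (a % 3)))))))) := rfl
  have h : ∀ {i x}, dg (cd9 p q r u v w c b a) i = x % 3 → dz (cd9 p q r u v w c b a) i = x := fun h => by
    rw [dz, h]; exact ZMod.natCast_mod _ 3
  rw [elU, h (i := 0) (x := p), h (i := 1) (x := q), h (i := 2) (x := r), h (i := 3) (x := u), h (i := 4) (x := v),
    h (i := 5) (x := w), h (i := 6) (x := c), h (i := 7) (x := b), h (i := 8) (x := a)]
  all_goals rw [dg, e]; omega

theorem elU_pr (x y : ℕ) : elU (pr x y) = elU x * elU y := by
  have e : ∀ x i, ((dn x i : ℕ) : k3) = dz x i := fun _ _ => rfl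
  have e2 : ((nat_lit 2 : ℕ) : k3) = -1 := rfl
  simp only [pr, frc_eq, elU_cd9, Nat.add_eq, Nat.mul_eq, Nat.cast_add, Nat.cast_mul, e, e2]
  simp only [elU]
  generalize dz x = X
  generalize dz y = Y
  msimp
  usimp
  and_intros <;> grind

theorem dz_congr {x y i : ℕ} (h : x / 3 ^ i % 3 = y / 3 ^ i % 3) : dz x i = dz y i := congrArg (fun n : ℕ => (n : k3)) h

theorem dz_zero {x i : ℕ} (h : x / 3 ^ i % 3 = 0) : dz x i = 0 := (congrArg (fun n : ℕ => (n : k3)) h).trans Nat.cast_zero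

theorem elU_split {q v : ℕ} (hv : v < 243) : elU (243 * q + v) = elU (243 * q) * elU v := by
  have h1 : ∀ i < 5, dz (243 * q + v) i = dz v i ∧ dz (243 * q) i = 0 := fun i hi =>
    ⟨dz_congr (by interval_cases i <;> omega), dz_zero (by interval_cases i <;> omega)⟩
  have h2 : ∀ i, 5 ≤ i → i < 9 → dz (243 * q + v) i = dz (243 * q) i ∧ dz v i = 0 := fun i h hi =>
    ⟨dz_congr (by interval_cases i <;> omega), dz_zero (by interval_cases i <;> omega)⟩
  simp only [elU, h1 0, h1 1, h1 2, h1 3, h1 4, h2 5, h2 6, h2 7, h2 8, Nat.reduceLT, Nat.reduceLeDiff, le_refl]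
  msimp
  usimp
  and_intros <;> ring

theorem elU_ad3 {a b c : ℕ} (ha : a < 243) (hb : b < 243) (hc : c < 243) : elU (ad3 a b c) = elU a * elU b * elU c := by
  have h1 : ∀ i < 5, dz (ad3 a b c) i = dz a i + dz b i + dz c i := fun i hi => by
    have : dg (ad3 a b c) i = (dg a i + dg b i + dg c i) % 3 := by
      rw [dg, ad3]; interval_cases i <;> omega
    rw [dz, this, ZMod.natCast_mod _ 3, Nat.cast_add, Nat.cast_add]; rfl
  have h2 : ∀ v < 243, ∀ i, 5 ≤ i → i < 9 → dz v i = 0 := fun v hv i h hi =>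
    dz_zero (by interval_cases i <;> omega)
  have hd := ad3_lt a b c
  simp only [elU, h1 0, h1 1, h1 2, h1 3, h1 4, h2 _ ha, h2 _ hb, h2 _ hc, h2 _ hd, Nat.reduceLT, Nat.reduceLeDiff, le_refl]
  msimp
  usimp
  and_intros <;> ring

theorem elU_mu {x y : ℕ} (hx : x < 19683) (hy : y < 19683) : elU (mu x y) = elU x * elU y := by
  have k : ∀ {a b}, prB a b = true → elU (mu a b) = elU a * elU b := fun h => by
    rw [← elU_pr]; exact congrArg _ (Nat.eq_of_beq_eq_true h)
  have h1 : elU (mu (243 * (x / 243)) (243 * (y / 243))) = elU (243 * (x / 243)) * elU (243 * (y / 243)) :=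
    k (allLt_iff.1 (allLt_iff.1 pr_c1 (x / 243) (by omega)) (y / 243) (by omega))
  have h2 : elU (mu (x % 243) (243 * (y / 243))) = elU (x % 243) * elU (243 * (y / 243)) := by
    have hv : x % 243 < 243 := by omega
    by_cases a : y / 243 < 27
    · exact k (allLt_iff.1 (allLt_iff.1 pr_c2 _ a) _ hv)
    by_cases b : y / 243 < 54
    · exact (show 27 + (y / 243 - 27) = y / 243 by omega) ▸ k (allLt_iff.1 (allLt_iff.1 pr_c3 _ (by omega)) _ hv)
    · exact (show 54 + (y / 243 - 54) = y / 243 by omega) ▸ k (allLt_iff.1 (allLt_iff.1 pr_c4 _ (by omega)) _ hv)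
  have h3 : mu (x % 243) (243 * (y / 243)) / 243 = y / 243 := by
    have a := mu_eq (x := x % 243) (y := 243 * (y / 243)) (by omega) (by omega)
    have b : ∀ q < 81, mu 0 (243 * q) / 243 = q := by decide +kernel
    rw [show x % 243 / 243 = 0 by omega, show 243 * (y / 243) / 243 = y / 243 by omega, mul_zero, b _ (by omega)] at a
    have c := ad3_lt (mu 0 (243 * (y / 243)) % 243) (mu (x % 243 % 243) (243 * (y / 243)) % 243) (243 * (y / 243) % 243)
    omega
  have s : ∀ t, elU t = elU (243 * (t / 243)) * elU (t % 243) := fun t => by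
    rw [← elU_split (by omega), Nat.div_add_mod]
  rw [s (mu _ _), h3] at h2
  rw [mu_eq hx hy, mul_comm _ 243, elU_split (ad3_lt _ _ _), elU_ad3 (by omega) (by omega) (by omega), ← mul_assoc, ← mul_assoc,
    ← s, h1, mul_assoc (elU _) (elU (243 * _)), h2, s x, s y]
  simp only [mul_assoc]

theorem elU_inj {x y : ℕ} (hx : x < 19683) (hy : y < 19683) (h : elU x = elU y) : x = y := by
  have h1 : dz x 8 = dz y 8 ∧ dz x 7 = dz y 7 ∧ dz x 6 = dz y 6 := by
    have a := congrArg U.a h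
    have b := congrArg U.b h
    have c := congrArg U.c h
    simp only [elU] at a b c
    msimp at a b c
    usimp at a b c
    exact ⟨by simpa using a, by simpa using b, by simpa using c⟩
  rw [elU, elU, h1.1, h1.2.1, h1.2.2, mul_right_inj] at h
  simp only [jj, U.mk.injEq, true_and] at h
  have k : ∀ i, dz x i = dz y i → dg x i = dg y i := fun i e => by
    have := (ZMod.natCast_eq_natCast_iff' _ _ 3).1 e
    rwa [Nat.mod_eq_of_lt (dg_lt _ _), Nat.mod_eq_of_lt (dg_lt _ _)] at this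
  have := k _ h1.1
  have := k _ h1.2.1
  have := k _ h1.2.2
  have := k _ h.1
  have := k _ h.2.1
  have := k _ h.2.2.1
  have := k _ h.2.2.2.1
  have := k _ h.2.2.2.2.1
  have := k _ h.2.2.2.2.2
  simp only [dg] at *
  omega

/-- the model -/
def mU : Md U where
  el := elU
  mul := elU_mu
  inj := elU_inj
  surj g := by
    obtain ⟨x, e⟩ := ((Nat.bijective_iff_injective_and_card fun x : Fin 19683 => elU x).2
      ⟨fun x y e => Fin.ext (elU_inj x.2 y.2 e), by rw [U.card, Nat.card_fin]; norm_num⟩).2 g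
    exact ⟨x, x.2, e⟩

end CL.C9
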