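/- S5227: the candidates for essential subgroups. -/
import Cfsg.Agent.FUS.C9.Enum
import Cfsg.Agent.FUS.C9.Mu
import Cfsg.Agent.FUS.C9.ClsK0
import Cfsg.Agent.FUS.C9.ClsK1
import Cfsg.Agent.FUS.C9.ClsK2
import Cfsg.Agent.FUS.C9.ClsK3
set_option autoImplicit false
set_option maxRecDepth 100000

namespace CL.C9
open Cfsg Cfsg.FusionSystem CL.Fus CL.K Subgroup
open CL.C1F hiding Md

theorem cls_ok (k : ℕ) (hk : k < 1480) : ∃ r, clsB cls 1480 spl k r = true := by
  have : (0 ≤ k ∧ k < 0 + 19) ∨ (19 ≤ k ∧ k < 19 + 51) ∨ (70 ≤ k ∧ k < 70 + 44) ∨ (114 ≤ k ∧ k < 114 + 82) ∨ (196 ≤ k ∧ k < 196 + 80) ∨ (276 ≤ k ∧ k < 276 + 82) ∨ (358 ≤ k ∧ k < 358 + 81) ∨ (439 ≤ k ∧ k < 439 + 85) ∨ (524 ≤ k ∧ k < 524 + 82) ∨ (606 ≤ k ∧ k < 606 + 82) ∨ (688 ≤ k ∧ k < 688 + 84) ∨ (772 ≤ k ∧ k < 772 + 120) ∨ (892 ≤ k ∧ k < 892 + 120) ∨ (1012 ≤ k ∧ k < 1012 + 120) ∨ (1132 ≤ k ∧ k < 1132 + 120) ∨ (1252 ≤ k ∧ k < 1252 + 120) ∨ (1372 ≤ k ∧ k < 1372 + 108) := by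 omega
  rcases this with h | h | h | h | h | h | h | h | h | h | h | h | h | h | h | h | h
  exacts [clsL_spec ok0 k h.1 h.2, clsL_spec ok19 k h.1 h.2, clsL_spec ok70 k h.1 h.2, clsL_spec ok114 k h.1 h.2, clsL_spec ok196 k h.1 h.2, clsL_spec ok276 k h.1 h.2, clsL_spec ok358 k h.1 h.2, clsL_spec ok439 k h.1 h.2, clsL_spec ok524 k h.1 h.2, clsL_spec ok606 k h.1 h.2, clsL_spec ok688 k h.1 h.2, clsL_spec ok772 k h.1 h.2, clsL_spec ok892 k h.1 h.2, clsL_spec ok1012 k h.1 h.2, clsL_spec ok1132 k h.1 h.2, clsL_spec ok1252 k h.1 h.2, clsL_spec ok1372 k h.1 h.2]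

/-- the coordinate at level `j` -/
def co (j : ℕ) (y : U) : k3 := [y.p, y.q, y.r, y.u, y.v, y.w, y.c, y.b, y.a].getD j 0

theorem co_elU {j x : ℕ} (hj : j < 9) (hx : x < 3 ^ (j + 1)) : co j (elU x) = dz x j := by
  by_cases h : j < 5
  · have h1 : 3 ^ (j + 1) ≤ 243 := Nat.pow_le_pow_right (n := 3) (j := 5) (by norm_num) h
    rw [elU, dz_zero (i := 8) (by omega), dz_zero (i := 7) (by omega), dz_zero (i := 6) (by omega),
      show tt 0 0 0 = 1 from rfl, one_mul]
    interval_cases j <;> rfl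
  · have := not_lt.1 h
    interval_cases j <;> simp [co, elU, tt, jj, U.mul_a, U.mul_b, U.mul_c, U.mul_w]

theorem full_of {M : Md U} (hs : mU.Sim M) {D : ℕ → ℕ} {H : Subgroup U} (hw : wf D = true) (hm : ∀ j < 9, M.el (D j) ∈ H)
    (hl : ∀ y ∈ H, ∀ j < 9, D j = 0 → (∀ i < 9, j < i → co i y = 0) → co j y = 0) : M.Full D H := by
  refine ⟨hw, hm, fun j hj h0 y hy => ?_⟩
  rw [hs.G_eq]
  obtain ⟨x, hx, rfl⟩ := mU.surj y
  rw [mU.mem_G hj hx, mU.mem_G hj.le hx]
  intro h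
  have := hl _ hy j hj h0 fun i hi hi' => by
    have h1 : 3 ^ (j + 1) ≤ 3 ^ i := Nat.pow_le_pow_right (by norm_num) hi'
    exact (co_elU hi (by rw [pow_succ]; omega)).trans (dz_zero (by rw [Nat.div_eq_of_lt (h.trans_le h1)]))
  have h2 := (ZMod.natCast_eq_zero_iff _ _).1 ((co_elU hj h).symm.trans this)
  have h3 : x / 3 ^ j < 3 := by rwa [Nat.div_lt_iff_lt_mul (by positivity), ← pow_succ']
  rw [dg, Nat.mod_eq_of_lt h3] at h2
  exact (Nat.div_eq_zero_iff_lt (by positivity)).1 (Nat.eq_zero_of_dvd_of_lt h2 h3)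

theorem full_nrm {M : Md U} (hs : mU.Sim M) {D : ℕ → ℕ} {H : Subgroup U} [H.Normal] (hw : wf D = true)
    (hm : ∀ j < 9, elU (D j) ∈ H)
    (hl : ∀ y ∈ H, ∀ j < 9, D j = 0 → (∀ i < 9, j < i → co i y = 0) → co j y = 0) : M.Full D H :=
  full_of hs hw (fun j hj => (hs.mem_iff _).2 (hm j hj)) hl

theorem full_sK {M : Md U} (hs : mU.Sim M) {D : ℕ → ℕ} {e : k3} (hw : wf D = true) (hm : ∀ j < 8, elU (D j) ∈ sJ)
    (h8 : elU (D 8) = tt 1 e 0) (h0 : ∀ j < 9, D j = 0 → j = 6 ∨ j = 7) : ∃ i, M.Full D (sK e i) := by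
  obtain ⟨s, h⟩ := id hs
  refine ⟨(cj s (tt 1 e 0)).c + e, full_of hs hw (fun j hj => ?_) fun y hy j hj h1 h2 => ?_⟩
  · by_cases a : j < 8
    · have := (hs.mem_iff (N := sJ) _).2 (hm j a)
      msimp at this ⊢
      simp [this]
    · obtain rfl : j = 8 := by omega
      rw [h, show mU.el (D 8) = _ from h8]
      msimp
      usimp
      exact ⟨by ring, by ring⟩
  · have a : y.a = 0 := h2 8 (by norm_num) (by have := h0 j hj h1; omega)
    rw [mem_sK, a] at hy
    rcases h0 j hj h1 with rfl | rfl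
    · exact hy.2.trans (by ring)
    · exact hy.1.trans (by ring)

/-- the candidates for essential subgroups -/
theorem ess_list {F : FusionSystem (⊤ : Subgroup U)} (hF : F.IsSaturated 3) {E : Subgroup U} (hE : F.IsEssential 3 E) :
    Lst E ∨ E = sJ ∨ E = sR ∨ ∃ e, E = Y5 e := by
  have ht : ∀ M : Md U, M.Full (en 0x19a1088b02d900f30051001b000900030001) ⊤ := fun M =>
    M.G_ten ▸ M.full_G le_rfl (by decide +kernel)
  obtain ⟨M, hs, k, hk, h⟩ := mU.classify cls_ok (by norm_num) (by rw [cls_0]; exact ht _) hF hE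
  simp only [spl, List.mem_cons, List.not_mem_nil, or_false] at hk
  rcases hk with rfl | rfl | rfl | rfl | rfl | rfl | rfl | rfl | rfl
  · erw [cls_0] at h
    exact absurd (h.unique (ht _)) (lt_of_essential pgT hF hE).ne
  · erw [cls_1] at h
    refine .inl (.inr (.inr (.inl (h.unique (full_nrm hs h.wf (by decide +kernel) fun y hy j hj h0 h1 => ?_)))))
    obtain rfl : j = 5 := by clear h1; revert j; decide +kernel
    exact hy
  · erw [cls_10] at h
    refine .inl (.inr (.inl (h.unique (full_nrm hs h.wf (by decide +kernel) fun y hy j hj h0 h1 => ?_))))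
    obtain rfl : j = 7 := by clear h1; revert j; decide +kernel
    exact hy
  · erw [cls_13] at h
    refine .inl (.inl (h.unique (full_nrm hs h.wf (by decide +kernel) fun y hy j hj h0 h1 => ?_)))
    obtain rfl : j = 8 := by clear h1; revert j; decide +kernel
    exact hy
  · erw [cls_20] at h
    refine .inr (.inr (.inl (h.unique (full_nrm hs h.wf (by decide +kernel) fun y hy j hj h0 h1 => ?_))))
    obtain rfl | rfl : j = 8 ∨ j = 5 := by clear h1; revert j; decide +kernel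
    exacts [hy.1, hy.2]
  · erw [cls_95] at h
    obtain ⟨i, hi⟩ := full_sK hs (e := 1) h.wf (by decide +kernel) (by decide +kernel) (by decide +kernel)
    exact .inl (.inr (.inr (.inr ⟨1, i, by decide, h.unique hi⟩)))
  · erw [cls_98] at h
    obtain ⟨i, hi⟩ := full_sK hs (e := 2) h.wf (by decide +kernel) (by decide +kernel) (by decide +kernel)
    exact .inl (.inr (.inr (.inr ⟨2, i, by decide, h.unique hi⟩)))
  · erw [cls_558] at h
    refine .inr (.inl (h.unique (full_nrm hs h.wf (by decide +kernel) fun y hy j hj h0 h1 => ?_)))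
    obtain rfl | rfl | rfl : j = 8 ∨ j = 7 ∨ j = 6 := by clear h1; revert j; decide +kernel
    exacts [hy.1, hy.2.1, hy.2.2]
  · erw [cls_598] at h
    obtain ⟨s, e⟩ := id hs
    refine .inr (.inr (.inr ⟨-s.w, h.unique (full_of hs h.wf (fun j hj => ?_) fun y hy j hj h0 h1 => ?_)⟩))
    · have : elU (en 0x88b02d900000000001b000000030001 j) ∈ [1, xp, xq, xu, xc, xb] := by revert j; decide +kernel
      rw [e]
      change cj s (elU _) ∈ _
      generalize elU _ = y at this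
      simp only [List.mem_cons, List.not_mem_nil, or_false] at this
      rcases this with rfl | rfl | rfl | rfl | rfl | rfl <;> msimp <;> usimp <;> and_intros <;> ring
    · obtain rfl | rfl | rfl | rfl : j = 8 ∨ j = 5 ∨ j = 4 ∨ j = 2 := by clear h1; revert j; decide +kernel
      · exact hy.1
      · exact hy.2.1
      · exact hy.2.2.2.trans (mul_eq_zero_of_right _ (h1 7 (by norm_num) (by norm_num)))
      · exact hy.2.2.1.trans (mul_eq_zero_of_right _ (h1 6 (by norm_num) (by norm_num)))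

end CL.C9
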